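/-
Reflections of a symmetric bilinear form given by a matrix `G` (helper67; used for the pieces
P1/P2 of bulletin #960).
-/
import Mathlib

set_option autoImplicit false

namespace Cfsg.Agent.Lib.Helper67.Refl

open Matrix

variable {n : Type*} [Fintype n] [DecidableEq n] {K : Type*} [Field K]

/-- the bilinear form `xᵀ G y` -/
def bf (G : Matrix n n K) (x y : n → K) : K := x ⬝ᵥ (G *ᵥ y)

/-- the reflection `1 - (2 / b(u,u)) u (G u)ᵀ` -/
def rf (G : Matrix n n K) (u : n → K) : Matrix n n K :=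
  1 - (2 / bf G u u) • vecMulVec u (G *ᵥ u)

theorem bf_comm {G : Matrix n n K} (hG : Gᵀ = G) (x y : n → K) : bf G x y = bf G y x := by
  unfold bf
  rw [dotProduct_mulVec, ← mulVec_transpose, hG, dotProduct_comm]

theorem bf_add_left (G : Matrix n n K) (x y z : n → K) : bf G (x + y) z = bf G x z + bf G y z := by
  unfold bf; rw [add_dotProduct]

theorem bf_add_right (G : Matrix n n K) (x y z : n → K) : bf G x (y + z) = bf G x y + bf G x z := by
  unfold bf; rw [mulVec_add, dotProduct_add]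

theorem bf_sub_left (G : Matrix n n K) (x y z : n → K) : bf G (x - y) z = bf G x z - bf G y z := by
  unfold bf; rw [sub_dotProduct]

theorem bf_sub_right (G : Matrix n n K) (x y z : n → K) : bf G x (y - z) = bf G x y - bf G x z := by
  unfold bf; rw [mulVec_sub, dotProduct_sub]

theorem bf_smul_left (G : Matrix n n K) (c : K) (x y : n → K) : bf G (c • x) y = c * bf G x y := by
  unfold bf; rw [smul_dotProduct, smul_eq_mul]

theorem bf_smul_right (G : Matrix n n K) (c : K) (x y : n → K) : bf G x (c • y) = c * bf G x y := by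
  unfold bf; rw [mulVec_smul, dotProduct_smul, smul_eq_mul]

theorem rf_mulVec (G : Matrix n n K) (u x : n → K) :
    rf G u *ᵥ x = x - (2 * bf G x u / bf G u u) • u := by
  unfold rf
  rw [sub_mulVec, one_mulVec, smul_mulVec, vecMulVec_mulVec, op_smul_eq_smul, smul_smul]
  congr 2
  unfold bf
  rw [dotProduct_comm (G *ᵥ u) x]
  ring

theorem vecMul_rf (G : Matrix n n K) (u x : n → K) :
    x ᵥ* rf G u = x - (2 * (x ⬝ᵥ u) / bf G u u) • (G *ᵥ u) := by
  unfold rf
  rw [vecMul_sub, vecMul_one, vecMul_smul, vecMul_vecMulVec, smul_smul]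
  congr 2
  ring

theorem rf_apply (G : Matrix n n K) (u : n → K) (a b : n) :
    rf G u a b = (if a = b then 1 else 0) - 2 / bf G u u * (u a * (G *ᵥ u) b) := by
  unfold rf
  simp [Matrix.one_apply, vecMulVec_apply]

theorem vmv_mul_vmv (u g v k : n → K) :
    vecMulVec u g * vecMulVec v k = (g ⬝ᵥ v) • vecMulVec u k := by
  rw [vecMulVec_mul_vecMulVec, vecMulVec_smul]

theorem upd_mul_upd (α β : K) (u g v k : n → K) :
    (1 - α • vecMulVec u g) * (1 - β • vecMulVec v k) =
      1 - α • vecMulVec u g - β • vecMulVec v k + (α * β * (g ⬝ᵥ v)) • vecMulVec u k := by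
  rw [sub_mul, mul_sub, mul_sub, one_mul, mul_one, one_mul, smul_mul_smul_comm, vmv_mul_vmv,
    smul_smul]
  abel

theorem rf_mul_self {G : Matrix n n K} {u : n → K} (hu : bf G u u ≠ 0) :
    rf G u * rf G u = 1 := by
  unfold rf
  rw [upd_mul_upd, dotProduct_comm]
  change _ + (2 / bf G u u * (2 / bf G u u) * bf G u u) • _ = _
  have : 2 / bf G u u * (2 / bf G u u) * bf G u u = 2 / bf G u u + 2 / bf G u u := by
    field_simp; ring
  rw [this, add_smul]
  abel

theorem rf_transpose (G : Matrix n n K) (u : n → K) :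
    (rf G u)ᵀ = 1 - (2 / bf G u u) • vecMulVec (G *ᵥ u) u := by
  unfold rf
  rw [transpose_sub, transpose_one, transpose_smul, transpose_vecMulVec]

theorem rf_isom {G : Matrix n n K} (hG : Gᵀ = G) {u : n → K} (hu : bf G u u ≠ 0) :
    (rf G u)ᵀ * G * rf G u = G := by
  have h1 : vecMulVec (G *ᵥ u) u * G = vecMulVec (G *ᵥ u) (G *ᵥ u) := by
    rw [vecMulVec_mul, ← mulVec_transpose, hG]
  have h2 : G * vecMulVec u (G *ᵥ u) = vecMulVec (G *ᵥ u) (G *ᵥ u) := by
    rw [mul_vecMulVec]
  have h3 : vecMulVec (G *ᵥ u) (G *ᵥ u) * vecMulVec u (G *ᵥ u)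
      = bf G u u • vecMulVec (G *ᵥ u) (G *ᵥ u) := by
    rw [vmv_mul_vmv, dotProduct_comm]; rfl
  rw [rf_transpose]
  unfold rf
  rw [sub_mul, one_mul, smul_mul_assoc, h1, sub_mul, mul_sub, mul_sub, mul_one, mul_one,
    mul_smul_comm, h2, smul_mul_smul_comm, h3, smul_smul]
  have : 2 / bf G u u * (2 / bf G u u) * bf G u u = 2 / bf G u u + 2 / bf G u u := by
    field_simp; ring
  rw [this, add_smul]
  abel

theorem det_rf {G : Matrix n n K} {u : n → K} (hu : bf G u u ≠ 0) : (rf G u).det = -1 := by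
  have h : rf G u = 1 + replicateCol Unit (-(2 / bf G u u) • u) * replicateRow Unit (G *ᵥ u) := by
    unfold rf
    ext a b
    simp [Matrix.mul_apply, vecMulVec_apply, sub_eq_add_neg, mul_assoc]
  rw [h, det_one_add_replicateCol_mul_replicateRow, dotProduct_smul, dotProduct_comm]
  change 1 + -(2 / bf G u u) • bf G u u = -1
  rw [smul_eq_mul]
  field_simp
  ring

theorem rf_comm {G : Matrix n n K} (hG : Gᵀ = G) {u v : n → K} (huv : bf G u v = 0) :
    rf G u * rf G v = rf G v * rf G u := by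
  have h1 : (G *ᵥ u) ⬝ᵥ v = 0 := by
    rw [dotProduct_comm]; rw [bf_comm hG] at huv; exact huv
  have h2 : (G *ᵥ v) ⬝ᵥ u = 0 := by
    rw [dotProduct_comm]; exact huv
  unfold rf
  rw [upd_mul_upd, upd_mul_upd, h1, h2]
  simp only [mul_zero, zero_smul, add_zero]
  abel

theorem bf_mulVec_mulVec {G g : Matrix n n K} (hg : gᵀ * G * g = G) (x y : n → K) :
    bf G (g *ᵥ x) (g *ᵥ y) = bf G x y := by
  unfold bf
  conv_rhs => rw [← hg]
  rw [mulVec_mulVec, ← mulVec_mulVec, Matrix.mul_assoc, ← mulVec_mulVec, dotProduct_mulVec x,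
    vecMul_transpose, mulVec_mulVec]

/-- `g R_u = R_{g u} g` for an isometry `g`. -/
theorem mul_rf {G g : Matrix n n K} (hg : gᵀ * G * g = G) (u : n → K) :
    g * rf G u = rf G (g *ᵥ u) * g := by
  unfold rf
  rw [mul_sub, sub_mul, mul_one, one_mul, mul_smul_comm, smul_mul_assoc, mul_vecMulVec,
    vecMulVec_mul, bf_mulVec_mulVec hg, ← mulVec_transpose, mulVec_mulVec, mulVec_mulVec, hg]

theorem rf_sub_mulVec_left {G : Matrix n n K} (hG : Gᵀ = G) {u v : n → K}
    (huv : bf G u u = bf G v v) (hne : bf G (u - v) (u - v) ≠ 0) : rf G (u - v) *ᵥ u = v := by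
  have h1 : bf G (u - v) (u - v) = 2 * bf G u (u - v) := by
    simp only [bf_sub_left, bf_sub_right]
    rw [bf_comm hG v u, ← huv]; ring
  rw [rf_mulVec, h1, div_self (by rw [← h1]; exact hne), one_smul]
  abel

theorem rf_sub_mulVec_right {G : Matrix n n K} (hG : Gᵀ = G) {u v : n → K}
    (huv : bf G u u = bf G v v) (hne : bf G (u - v) (u - v) ≠ 0) : rf G (u - v) *ᵥ v = u := by
  have h1 : bf G (u - v) (u - v) = -(2 * bf G v (u - v)) := by
    simp only [bf_sub_left, bf_sub_right]
    rw [bf_comm hG v u, ← huv]; ring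
  have h2 : 2 * bf G v (u - v) / bf G (u - v) (u - v) = -1 := by
    rw [eq_comm, eq_div_iff hne, h1]; ring
  rw [rf_mulVec, h2, neg_one_smul]
  abel

theorem rf_mulVec_self {G : Matrix n n K} {u : n → K} (hu : bf G u u ≠ 0) :
    rf G u *ᵥ u = -u := by
  rw [rf_mulVec, mul_div_assoc, div_self hu, mul_one, two_smul]
  abel

theorem rf_mulVec_of_ortho {G : Matrix n n K} {u x : n → K} (h : bf G x u = 0) :
    rf G u *ᵥ x = x := by
  rw [rf_mulVec, h]; simp

end Cfsg.Agent.Lib.Helper67.Refl
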