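/-
Piece [P1] `rigO` of bulletin #960 (helper80's farm for S2686), by helper67.
Rigidity of the special orthogonal group over a subfield.
-/
import Cfsg.Agent.Lib.Helper67.Refl

set_option autoImplicit false

namespace Cfsg.Agent.Lib.Helper67.LBP

open Matrix Cfsg.Agent.Lib.Helper67.Refl

section Abs

variable {A B : Type*} [Ring A] {F : Type*} [Field F] [Ring B] [Algebra F B]

/-- the relation `h Ψ(X) = z Φ(X) h` -/
def Q (Φ Ψ : A →+* B) (h : B) (X : A) (z : F) : Prop := h * Ψ X = z • (Φ X * h)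

theorem Q.mul {Φ Ψ : A →+* B} {h : B} {X Y : A} {z w : F} (hX : Q Φ Ψ h X z) (hY : Q Φ Ψ h Y w) :
    Q Φ Ψ h (X * Y) (z * w) := by
  unfold Q at *
  rw [map_mul, map_mul, ← mul_assoc, hX, smul_mul_assoc, mul_assoc, hY, mul_smul_comm, smul_smul,
    mul_assoc]

theorem Q.eq_one {Φ Ψ : A →+* B} {h : B} (h10 : (1 : B) ≠ 0) (hh : IsUnit h) {z : F}
    (hX : Q Φ Ψ h 1 z) : z = 1 := by
  unfold Q at hX
  rw [map_one, map_one, mul_one, one_mul] at hX
  obtain ⟨k, hk⟩ := hh.exists_right_inv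
  have h1 : (1 : B) = z • 1 := by
    calc (1 : B) = h * k := hk.symm
      _ = (z • h) * k := by rw [← hX]
      _ = z • 1 := by rw [smul_mul_assoc, hk]
  by_contra hz
  have h3 : (1 - z) • (1 : B) = 0 := by rw [sub_smul, one_smul, ← h1, sub_self]
  apply h10
  have := congrArg (fun t => (1 - z)⁻¹ • t) h3
  simpa [smul_smul, inv_mul_cancel₀ (sub_ne_zero.2 (Ne.symm hz))] using this

theorem Q.sq_eq_one {Φ Ψ : A →+* B} {h : B} (h10 : (1 : B) ≠ 0) (hh : IsUnit h) {z : F} {X : A}
    (hX : Q Φ Ψ h X z) (hXX : X * X = 1) : z * z = 1 := by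
  have := hX.mul hX
  rw [hXX] at this
  exact this.eq_one h10 hh

end Abs

section Diag

variable {n : ℕ} {F0 : Type*} [Field F0]

theorem exists_diag (h2 : (2 : F0) ≠ 0) (G : Matrix (Fin n) (Fin n) F0) (hG : Gᵀ = G) :
    ∃ (P : Matrix (Fin n) (Fin n) F0) (a : Fin n → F0), IsUnit P ∧ Pᵀ * G * P = diagonal a := by
  have : Invertible (2 : F0) := invertibleOfNonzero h2
  obtain ⟨v, hv⟩ := LinearMap.BilinForm.exists_orthogonal_basis
    (B := Matrix.toBilin' G) (LinearMap.BilinForm.isSymm_iff.1 (Matrix.isSymm_toBilin'_iff_isSymm.2 hG))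
  have hfr : Module.finrank F0 (Fin n → F0) = n := Module.finrank_fin_fun F0
  set w : Module.Basis (Fin n) F0 (Fin n → F0) := v.reindex (finCongr hfr) with hw
  have hwo : ∀ a b, a ≠ b → Matrix.toBilin' G (w a) (w b) = 0 := by
    intro a b hab
    rw [hw, Module.Basis.reindex_apply, Module.Basis.reindex_apply]
    exact hv (fun h => hab ((finCongr hfr).symm.injective h))
  refine ⟨(Pi.basisFun F0 (Fin n)).toMatrix w, fun a => Matrix.toBilin' G (w a) (w a), ?_, ?_⟩
  · have := (Pi.basisFun F0 (Fin n)).invertibleToMatrix w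
    exact isUnit_of_invertible _
  · ext a b
    have h1 : (((Pi.basisFun F0 (Fin n)).toMatrix w)ᵀ * G * (Pi.basisFun F0 (Fin n)).toMatrix w) a b
        = Matrix.toBilin' G (w a) (w b) := by
      rw [Matrix.toBilin'_apply', Matrix.mul_assoc, Matrix.mul_apply, dotProduct]
      refine Finset.sum_congr rfl fun l _ => ?_
      rw [Matrix.transpose_apply, Module.Basis.toMatrix_apply, Pi.basisFun_repr, Matrix.mul_apply,
        mulVec, dotProduct]
      congr 1
    rw [h1, diagonal_apply]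
    split_ifs with hab
    · rw [hab]
    · exact hwo a b hab

theorem exists_sq_add_sq [Fintype F0] (h2 : (2 : F0) ≠ 0) {a b : F0} (ha : a ≠ 0) (hb : b ≠ 0)
    (c : F0) : ∃ x y : F0, a * x ^ 2 + b * y ^ 2 = c := by
  open Polynomial in
  have hodd : Fintype.card F0 % 2 = 1 := by
    apply FiniteField.odd_card_of_char_ne_two
    intro h
    apply h2
    have := CharP.cast_eq_zero F0 (ringChar F0)
    rw [h] at this
    exact_mod_cast this
  obtain ⟨x, y, hxy⟩ := FiniteField.exists_root_sum_quadratic (R := F0)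
    (f := Polynomial.C a * Polynomial.X ^ 2) (g := Polynomial.C b * Polynomial.X ^ 2 - Polynomial.C c)
    (by rw [Polynomial.degree_C_mul_X_pow 2 ha]; rfl)
    (by
      rw [Polynomial.degree_sub_C]
      · rw [Polynomial.degree_C_mul_X_pow 2 hb]; rfl
      · rw [Polynomial.degree_C_mul_X_pow 2 hb]; norm_num) hodd
  refine ⟨x, y, ?_⟩
  simp only [Polynomial.eval_mul, Polynomial.eval_C, Polynomial.eval_pow, Polynomial.eval_X,
    Polynomial.eval_sub] at hxy
  linear_combination hxy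

end Diag

section Main

variable {n : ℕ} {F : Type*} [Field F] {F0 : Type*} [Field F0]

theorem bf_diag_single_right (a x : Fin n → F0) (k : Fin n) :
    bf (diagonal a) x (Pi.single k 1) = x k * a k := by
  unfold bf
  rw [mulVec_single_one, dotProduct]
  simp [Matrix.col_apply, diagonal_apply]

theorem bf_diag_single_left (a y : Fin n → F0) (k : Fin n) :
    bf (diagonal a) (Pi.single k 1) y = a k * y k := by
  unfold bf
  rw [single_one_dotProduct, mulVec_diagonal]

/-- `Φ` -/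
abbrev PhiM (n : ℕ) (i : F0 →+* F) : Matrix (Fin n) (Fin n) F0 →+* Matrix (Fin n) (Fin n) F :=
  i.mapMatrix

/-- `Ψ` -/
abbrev PsiM (n : ℕ) (i : F0 →+* F) (τ : F ≃+* F) :
    Matrix (Fin n) (Fin n) F0 →+* Matrix (Fin n) (Fin n) F :=
  (τ : F →+* F).mapMatrix.comp i.mapMatrix

theorem entry_zero {i : F0 →+* F} {τ : F ≃+* F} {h : Matrix (Fin n) (Fin n) F}
    {S : Matrix (Fin n) (Fin n) F0} (hS : Q (PhiM n i) (PsiM n i τ) h S (1 : F)) {j k : Fin n}
    {ε : F0} (hε : ε = 1 ∨ ε = -1) (h2F : (2 : F) ≠ 0)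
    (hcol : S *ᵥ Pi.single k 1 = ε • Pi.single k 1)
    (hrow : Pi.single j 1 ᵥ* S = (-ε) • Pi.single j 1) : h j k = 0 := by
  have hc : ∀ l, S l k = if l = k then ε else 0 := by
    intro l
    have := congrFun hcol l
    rw [mulVec_single_one] at this
    simpa [Pi.single_apply] using this
  have hr : ∀ l, S j l = if l = j then -ε else 0 := by
    intro l
    have := congrFun hrow l
    rw [single_one_vecMul] at this
    simpa [Pi.single_apply] using this
  unfold Q at hS
  have h1 := congrFun (congrFun hS j) k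
  rw [one_smul, Matrix.mul_apply, Matrix.mul_apply] at h1
  simp only [RingHom.comp_apply, RingHom.mapMatrix_apply, Matrix.map_apply, hc, hr] at h1
  simp only [apply_ite, map_zero, mul_ite, mul_zero, ite_mul, zero_mul, Finset.sum_ite_eq',
    Finset.mem_univ, if_true] at h1
  rcases hε with rfl | rfl
  · simp only [map_one, map_neg, mul_one] at h1
    have : (2 : F) * h j k = 0 := by linear_combination h1
    exact (mul_eq_zero.1 this).resolve_left h2F
  · simp only [map_one, map_neg, mul_one, neg_neg] at h1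
    have : (2 : F) * h j k = 0 := by linear_combination -h1
    exact (mul_eq_zero.1 this).resolve_left h2F

theorem isom_mul {G X Y : Matrix (Fin n) (Fin n) F0} (hX : Xᵀ * G * X = G)
    (hY : Yᵀ * G * Y = G) : (X * Y)ᵀ * G * (X * Y) = G := by
  rw [transpose_mul]
  calc Yᵀ * Xᵀ * G * (X * Y) = Yᵀ * (Xᵀ * G * X) * Y := by simp only [Matrix.mul_assoc]
    _ = G := by rw [hX, hY]

theorem pair_sq {G : Matrix (Fin n) (Fin n) F0} (hG : Gᵀ = G) {u v : Fin n → F0}
    (hu : bf G u u ≠ 0) (hv : bf G v v ≠ 0) (huv : bf G u v = 0) :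
    (rf G u * rf G v) * (rf G u * rf G v) = 1 := by
  calc (rf G u * rf G v) * (rf G u * rf G v)
      = rf G u * (rf G v * rf G u) * rf G v := by simp only [Matrix.mul_assoc]
    _ = rf G u * (rf G u * rf G v) * rf G v := by rw [rf_comm hG huv]
    _ = (rf G u * rf G u) * (rf G v * rf G v) := by simp only [Matrix.mul_assoc]
    _ = 1 := by rw [rf_mul_self hu, rf_mul_self hv, one_mul]

theorem pair_det {G : Matrix (Fin n) (Fin n) F0} {u v : Fin n → F0}
    (hu : bf G u u ≠ 0) (hv : bf G v v ≠ 0) : (rf G u * rf G v).det = 1 := by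
  rw [det_mul, det_rf hu, det_rf hv]; norm_num

theorem pair_isom {G : Matrix (Fin n) (Fin n) F0} (hG : Gᵀ = G) {u v : Fin n → F0}
    (hu : bf G u u ≠ 0) (hv : bf G v v ≠ 0) :
    (rf G u * rf G v)ᵀ * G * (rf G u * rf G v) = G :=
  isom_mul (rf_isom hG hu) (rf_isom hG hv)

theorem vecMul_rf_of_dot {G : Matrix (Fin n) (Fin n) F0} {u x : Fin n → F0} (h : x ⬝ᵥ u = 0) :
    x ᵥ* rf G u = x := by
  rw [vecMul_rf, h]; simp

theorem single_vecMul_rf_single {a : Fin n → F0} {j : Fin n} (hj : a j ≠ 0) :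
    (Pi.single j 1 : Fin n → F0) ᵥ* rf (diagonal a) (Pi.single j 1) = -Pi.single j 1 := by
  rw [vecMul_rf, bf_diag_single_left, single_one_dotProduct, Pi.single_eq_same, mul_one, mul_one]
  have : diagonal a *ᵥ (Pi.single j 1 : Fin n → F0) = a j • Pi.single j 1 := by
    ext l
    rw [mulVec_diagonal]
    by_cases hl : l = j
    · subst hl; simp
    · simp [Pi.single_apply, hl]
  rw [this, smul_smul, div_mul_cancel₀ _ hj, two_smul]
  abel

theorem exists_not_mem (s : Finset (Fin n)) (hs : s.card < n) : ∃ j, j ∉ s := by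
  by_contra hcon
  push Not at hcon
  have : s = Finset.univ := Finset.eq_univ_iff_forall.2 hcon
  rw [this, Finset.card_univ, Fintype.card_fin] at hs
  omega

theorem offdiag_four [Fintype F0] {i : F0 →+* F} {τ : F ≃+* F} {a : Fin n → F0}
    {h : Matrix (Fin n) (Fin n) F} (h2 : (2 : F0) ≠ 0) (ha : ∀ j, a j ≠ 0) (hh : IsUnit h)
    (H : ∀ X : Matrix (Fin n) (Fin n) F0, X.det = 1 → Xᵀ * diagonal a * X = diagonal a →
      ∃ z : F, Q (PhiM n i) (PsiM n i τ) h X z)
    (hn : 4 ≤ n) {j k : Fin n} (hjk : j ≠ k) : h j k = 0 := by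
  obtain ⟨j1, hj1⟩ := exists_not_mem ({j, k} : Finset (Fin n))
    (lt_of_le_of_lt Finset.card_le_two (by omega))
  obtain ⟨j2, hj2⟩ := exists_not_mem ({j, k, j1} : Finset (Fin n))
    (lt_of_le_of_lt Finset.card_le_three (by omega))
  simp only [Finset.mem_insert, Finset.mem_singleton, not_or] at hj1 hj2
  obtain ⟨hj1j, hj1k⟩ := hj1
  obtain ⟨hj2j, hj2k, hj21⟩ := hj2
  obtain ⟨x, y, hxy⟩ := exists_sq_add_sq h2 (ha j1) (ha j2) (a k)
  have hD : (diagonal a)ᵀ = diagonal a := diagonal_transpose a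
  set D := diagonal a with hDdef
  set ek : Fin n → F0 := Pi.single k 1 with hek
  set ej : Fin n → F0 := Pi.single j 1 with hej
  set v : Fin n → F0 := x • Pi.single j1 1 + y • Pi.single j2 1 with hv
  have vk : v k = 0 := by simp [hv, Pi.single_apply, Ne.symm hj1k, Ne.symm hj2k]
  have vj : v j = 0 := by simp [hv, Pi.single_apply, Ne.symm hj1j, Ne.symm hj2j]
  have v1 : v j1 = x := by simp [hv, Pi.single_apply, Ne.symm hj21]
  have v2 : v j2 = y := by simp [hv, Pi.single_apply, hj21]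
  have b_kk : bf D ek ek = a k := by rw [bf_diag_single_left]; simp [hek]
  have b_jj : bf D ej ej = a j := by rw [bf_diag_single_left]; simp [hej]
  have b_kj : bf D ek ej = 0 := by rw [bf_diag_single_left]; simp [hej, Pi.single_apply, Ne.symm hjk]
  have b_vv : bf D v v = a k := by
    conv_lhs => rw [hv]
    rw [bf_add_left, bf_smul_left, bf_smul_left, bf_diag_single_left, bf_diag_single_left, ← hv,
      v1, v2, ← hxy]
    ring
  have b_vk : bf D v ek = 0 := by rw [bf_diag_single_right, vk, zero_mul]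
  have b_vj : bf D v ej = 0 := by rw [bf_diag_single_right, vj, zero_mul]
  have b_ww : bf D (ek - v) (ek - v) = 2 * a k := by
    rw [bf_sub_left, bf_sub_right, bf_sub_right, b_kk, b_vv, b_vk, bf_comm hD, b_vk]; ring
  have b_wj : bf D (ek - v) ej = 0 := by rw [bf_sub_left, b_kj, b_vj, sub_zero]
  have n_k : bf D ek ek ≠ 0 := by rw [b_kk]; exact ha k
  have n_j : bf D ej ej ≠ 0 := by rw [b_jj]; exact ha j
  have n_w : bf D (ek - v) (ek - v) ≠ 0 := by rw [b_ww]; exact mul_ne_zero h2 (ha k)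
  set A := rf D ek * rf D ej with hA
  set B := rf D (ek - v) * rf D ej with hB
  have h10 : (1 : Matrix (Fin n) (Fin n) F) ≠ 0 := by
    intro h0
    have := congrFun (congrFun h0 j) j
    simp at this
  obtain ⟨zA, hzA⟩ := H A (pair_det n_k n_j) (pair_isom hD n_k n_j)
  obtain ⟨zB, hzB⟩ := H B (pair_det n_w n_j) (pair_isom hD n_w n_j)
  have hzA2 := hzA.sq_eq_one h10 hh (pair_sq hD n_k n_j b_kj)
  have hzB2 := hzB.sq_eq_one h10 hh (pair_sq hD n_w n_j b_wj)
  have hS : Q (PhiM n i) (PsiM n i τ) h (A * B * A * B) (1 : F) := by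
    have := ((hzA.mul hzB).mul hzA).mul hzB
    have h1 : zA * zB * zA * zB = 1 := by
      calc zA * zB * zA * zB = (zA * zA) * (zB * zB) := by ring
        _ = 1 := by rw [hzA2, hzB2, one_mul]
    rwa [h1] at this
  have h2F : (2 : F) ≠ 0 := by
    intro h0
    apply h2
    apply i.injective
    rw [map_zero, map_ofNat]
    exact h0
  have Bek : B *ᵥ ek = v := by
    rw [hB, ← mulVec_mulVec, rf_mulVec_of_ortho b_kj, rf_sub_mulVec_left hD (b_kk.trans b_vv.symm) n_w]
  have Av : A *ᵥ v = v := by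
    rw [hA, ← mulVec_mulVec, rf_mulVec_of_ortho b_vj, rf_mulVec_of_ortho b_vk]
  have Bv : B *ᵥ v = ek := by
    rw [hB, ← mulVec_mulVec, rf_mulVec_of_ortho b_vj, rf_sub_mulVec_right hD (b_kk.trans b_vv.symm) n_w]
  have Aek : A *ᵥ ek = -ek := by
    rw [hA, ← mulVec_mulVec, rf_mulVec_of_ortho b_kj, rf_mulVec_self n_k]
  have e1 : ej ᵥ* rf D ek = ej := vecMul_rf_of_dot (by
    rw [hej, single_one_dotProduct, hek]; simp [Pi.single_apply, hjk])
  have e2 : ej ᵥ* rf D ej = -ej := single_vecMul_rf_single (ha j)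
  have e3 : ej ᵥ* rf D (ek - v) = ej := vecMul_rf_of_dot (by
    rw [hej, single_one_dotProduct, Pi.sub_apply, vj, hek]; simp [Pi.single_apply, hjk])
  have ejA : ej ᵥ* A = -ej := by rw [hA, ← vecMul_vecMul, e1, e2]
  have ejB : ej ᵥ* B = -ej := by rw [hB, ← vecMul_vecMul, e3, e2]
  refine entry_zero hS (ε := -1) (Or.inr rfl) h2F ?_ ?_
  · have : (A * B * A * B) *ᵥ ek = A *ᵥ (B *ᵥ (A *ᵥ (B *ᵥ ek))) := by
      simp only [mulVec_mulVec, Matrix.mul_assoc]
    rw [this, Bek, Av, Bv, Aek, neg_one_smul]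
  · have : ej ᵥ* (A * B * A * B) = (((ej ᵥ* A) ᵥ* B) ᵥ* A) ᵥ* B := by
      simp only [vecMul_vecMul]
    rw [this, ejA, neg_vecMul, ejB, neg_neg, ejA, neg_vecMul, ejB, neg_neg, neg_neg, one_smul]

theorem Q_det {i : F0 →+* F} {τ : F ≃+* F} {h : Matrix (Fin n) (Fin n) F} (hh : IsUnit h)
    {X : Matrix (Fin n) (Fin n) F0} {z : F} (hX : Q (PhiM n i) (PsiM n i τ) h X z)
    (hd : X.det = 1) : z ^ n = 1 := by
  unfold Q at hX
  have := congrArg Matrix.det hX
  rw [det_mul, det_smul, det_mul, Fintype.card_fin] at this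
  have h1 : (PhiM n i X).det = 1 := by rw [← RingHom.map_det, hd, map_one]
  have h2 : (PsiM n i τ X).det = 1 := by
    rw [RingHom.comp_apply, ← RingHom.map_det, ← RingHom.map_det, hd, map_one, map_one]
  rw [h1, h2, mul_one, one_mul] at this
  have hd : h.det ≠ 0 := ((Matrix.isUnit_iff_isUnit_det h).1 hh).ne_zero
  exact (mul_right_cancel₀ hd (by rw [one_mul]; exact this)).symm

theorem one_ne_zero_mat (hn : 3 ≤ n) : (1 : Matrix (Fin n) (Fin n) F) ≠ 0 := by
  intro h0
  have := congrFun (congrFun h0 ⟨0, by omega⟩) ⟨0, by omega⟩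
  simp at this

theorem neg_rf_Q {i : F0 →+* F} {τ : F ≃+* F} {a : Fin n → F0}
    {h : Matrix (Fin n) (Fin n) F} (hh : IsUnit h)
    (H : ∀ X : Matrix (Fin n) (Fin n) F0, X.det = 1 → Xᵀ * diagonal a * X = diagonal a →
      ∃ z : F, Q (PhiM n i) (PsiM n i τ) h X z)
    (hn : n = 3) {u : Fin n → F0} (hu : bf (diagonal a) u u ≠ 0) :
    Q (PhiM n i) (PsiM n i τ) h (-rf (diagonal a) u) (1 : F) := by
  have hD : (diagonal a)ᵀ = diagonal a := diagonal_transpose a
  have hdet : (-rf (diagonal a) u).det = 1 := by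
    rw [det_neg, det_rf hu, Fintype.card_fin, hn]; norm_num
  obtain ⟨z, hz⟩ := H (-rf (diagonal a) u) hdet (by
    rw [transpose_neg, Matrix.neg_mul, Matrix.neg_mul, Matrix.mul_neg, neg_neg, rf_isom hD hu])
  have h1 := hz.sq_eq_one (one_ne_zero_mat (by omega)) hh (by rw [neg_mul_neg, rf_mul_self hu])
  have h3 := Q_det hh hz hdet
  rw [hn] at h3
  have : z = 1 := by
    calc z = z * (z * z) := by rw [h1, mul_one]
      _ = z ^ 3 := by ring
      _ = 1 := h3
  rwa [this] at hz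

theorem two_ne_zero_F (i : F0 →+* F) (h2 : (2 : F0) ≠ 0) : (2 : F) ≠ 0 := by
  intro h0
  apply h2
  apply i.injective
  rw [map_zero, map_ofNat]
  exact h0

theorem offdiag_three {i : F0 →+* F} {τ : F ≃+* F} {a : Fin n → F0}
    {h : Matrix (Fin n) (Fin n) F} (h2 : (2 : F0) ≠ 0) (ha : ∀ j, a j ≠ 0) (hh : IsUnit h)
    (H : ∀ X : Matrix (Fin n) (Fin n) F0, X.det = 1 → Xᵀ * diagonal a * X = diagonal a →
      ∃ z : F, Q (PhiM n i) (PsiM n i τ) h X z)
    (hn : n = 3) {j k : Fin n} (hjk : j ≠ k) : h j k = 0 := by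
  have n_k : bf (diagonal a) (Pi.single k 1) (Pi.single k 1) ≠ 0 := by
    rw [bf_diag_single_left]; simpa using ha k
  refine entry_zero (neg_rf_Q hh H hn n_k) (ε := 1) (Or.inl rfl) (two_ne_zero_F i h2) ?_ ?_
  · rw [neg_mulVec, rf_mulVec_self n_k, neg_neg, one_smul]
  · rw [vecMul_neg, vecMul_rf_of_dot, neg_one_smul]
    rw [single_one_dotProduct]; simp [Pi.single_apply, hjk]

theorem diag_entry {i : F0 →+* F} {τ : F ≃+* F} {h : Matrix (Fin n) (Fin n) F}
    (hd : ∀ j k, j ≠ k → h j k = 0) {S : Matrix (Fin n) (Fin n) F0} {z : F}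
    (hS : Q (PhiM n i) (PsiM n i τ) h S z) (p q : Fin n) :
    h p p * τ (i (S p q)) = z * (i (S p q) * h q q) := by
  unfold Q at hS
  have h1 := congrFun (congrFun hS p) q
  rw [Matrix.smul_apply, Matrix.mul_apply, Matrix.mul_apply, smul_eq_mul,
    Finset.sum_eq_single p (fun l _ hl => by rw [hd p l (Ne.symm hl), zero_mul]) (by simp),
    Finset.sum_eq_single q (fun l _ hl => by rw [hd l q hl, mul_zero]) (by simp)] at h1
  exact h1

theorem diag_ne_zero {h : Matrix (Fin n) (Fin n) F} (hh : IsUnit h)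
    (hd : ∀ j k, j ≠ k → h j k = 0) (j : Fin n) : h j j ≠ 0 := by
  intro h0
  have hdet : h.det ≠ 0 := ((Matrix.isUnit_iff_isUnit_det h).1 hh).ne_zero
  apply hdet
  apply Matrix.det_eq_zero_of_row_eq_zero j
  intro k
  by_cases hk : j = k
  · rw [← hk]; exact h0
  · exact hd j k hk

theorem stepE_three {i : F0 →+* F} {τ : F ≃+* F} {a : Fin n → F0}
    {h : Matrix (Fin n) (Fin n) F} (hh : IsUnit h)
    (H : ∀ X : Matrix (Fin n) (Fin n) F0, X.det = 1 → Xᵀ * diagonal a * X = diagonal a →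
      ∃ z : F, Q (PhiM n i) (PsiM n i τ) h X z)
    (hd : ∀ j k, j ≠ k → h j k = 0)
    (hn : n = 3) {u : Fin n → F0} (hu : bf (diagonal a) u u ≠ 0) (p q : Fin n) :
    h p p * τ (i (rf (diagonal a) u p q)) = i (rf (diagonal a) u p q) * h q q := by
  have := diag_entry hd (neg_rf_Q hh H hn hu) p q
  rw [Matrix.neg_apply, map_neg, map_neg, one_mul] at this
  linear_combination -this

theorem stepE_four {i : F0 →+* F} {τ : F ≃+* F} {a : Fin n → F0}
    {h : Matrix (Fin n) (Fin n) F} (ha : ∀ j, a j ≠ 0) (hh : IsUnit h)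
    (H : ∀ X : Matrix (Fin n) (Fin n) F0, X.det = 1 → Xᵀ * diagonal a * X = diagonal a →
      ∃ z : F, Q (PhiM n i) (PsiM n i τ) h X z)
    (hd : ∀ j k, j ≠ k → h j k = 0)
    {u : Fin n → F0} (hu : bf (diagonal a) u u ≠ 0) {j : Fin n} (huj : u j = 0) (p q : Fin n)
    (hq : q ≠ j) :
    h p p * τ (i (rf (diagonal a) u p q)) = i (rf (diagonal a) u p q) * h q q := by
  have hD : (diagonal a)ᵀ = diagonal a := diagonal_transpose a
  have n_j : bf (diagonal a) (Pi.single j 1) (Pi.single j 1) ≠ 0 := by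
    rw [bf_diag_single_left]; simpa using ha j
  obtain ⟨z, hz⟩ := H _ (pair_det hu n_j) (pair_isom hD hu n_j)
  have hcolj : (rf (diagonal a) u * rf (diagonal a) (Pi.single j 1)) *ᵥ Pi.single j 1
      = -Pi.single j 1 := by
    rw [← mulVec_mulVec, rf_mulVec_self n_j, mulVec_neg, rf_mulVec_of_ortho]
    rw [bf_diag_single_left, huj, mul_zero]
  have hjj : (rf (diagonal a) u * rf (diagonal a) (Pi.single j 1)) j j = -1 := by
    have := congrFun hcolj j
    rw [mulVec_single_one] at this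
    simpa using this
  have hz1 : z = 1 := by
    have := diag_entry hd hz j j
    rw [hjj, map_neg, map_neg, map_one, map_one] at this
    have hne := diag_ne_zero hh hd j
    have h3 : (z - 1) * h j j = 0 := by linear_combination this
    rcases mul_eq_zero.1 h3 with h4 | h4
    · exact sub_eq_zero.1 h4
    · exact absurd h4 hne
  have hcolq : (rf (diagonal a) u * rf (diagonal a) (Pi.single j 1)) *ᵥ Pi.single q 1
      = rf (diagonal a) u *ᵥ Pi.single q 1 := by
    have h0 : bf (diagonal a) (Pi.single q 1) (Pi.single j 1) = 0 := by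
      rw [bf_diag_single_left]; simp [Pi.single_apply, hq]
    rw [← mulVec_mulVec, rf_mulVec_of_ortho h0]
  have hpq : (rf (diagonal a) u * rf (diagonal a) (Pi.single j 1)) p q = rf (diagonal a) u p q := by
    have := congrFun hcolq p
    rw [mulVec_single_one, mulVec_single_one] at this
    simpa using this
  have := diag_entry hd hz p q
  rw [hpq, hz1, one_mul] at this
  exact this

theorem rig_diag [Fintype F0] (i : F0 →+* F) (τ : F ≃+* F) (a : Fin n → F0)
    (h : Matrix (Fin n) (Fin n) F) (h2 : (2 : F0) ≠ 0) (ha : ∀ j, a j ≠ 0) (hh : IsUnit h)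
    (H : ∀ X : Matrix (Fin n) (Fin n) F0, X.det = 1 → Xᵀ * diagonal a * X = diagonal a →
      ∃ z : F, Q (PhiM n i) (PsiM n i τ) h X z) (hn : 3 ≤ n) :
    (∀ x, τ (i x) = i x) ∧ ∃ c : F, h = c • (1 : Matrix (Fin n) (Fin n) F) := by
  have hd : ∀ j k, j ≠ k → h j k = 0 := by
    intro j k hjk
    rcases Nat.lt_or_ge 3 n with h4 | h3
    · exact offdiag_four h2 ha hh H h4 hjk
    · exact offdiag_three h2 ha hh H (by omega) hjk
  have hne := diag_ne_zero hh hd
  have hE : ∀ k l m : Fin n, k ≠ l → k ≠ m → l ≠ m → ∀ c d : F0,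
      a k + c ^ 2 * a l + d ^ 2 * a m ≠ 0 →
      τ (i (1 - 2 / (a k + c ^ 2 * a l + d ^ 2 * a m) * a k))
        = i (1 - 2 / (a k + c ^ 2 * a l + d ^ 2 * a m) * a k) ∧
      τ (i (1 - 2 / (a k + c ^ 2 * a l + d ^ 2 * a m) * (c ^ 2 * a l)))
        = i (1 - 2 / (a k + c ^ 2 * a l + d ^ 2 * a m) * (c ^ 2 * a l)) ∧
      h k k * τ (i (-(2 / (a k + c ^ 2 * a l + d ^ 2 * a m) * (a l * c))))
        = i (-(2 / (a k + c ^ 2 * a l + d ^ 2 * a m) * (a l * c))) * h l l := by
    intro k l m hkl hkm hlm c d hN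
    set u : Fin n → F0 := Pi.single k 1 + c • Pi.single l 1 + d • Pi.single m 1 with hu
    have uk : u k = 1 := by simp [hu, Pi.single_apply, hkl, hkm]
    have ul : u l = c := by simp [hu, Pi.single_apply, Ne.symm hkl, hlm]
    have um : u m = d := by simp [hu, Pi.single_apply, Ne.symm hkm, Ne.symm hlm]
    have hb : bf (diagonal a) u u = a k + c ^ 2 * a l + d ^ 2 * a m := by
      conv_lhs => rw [hu]
      rw [bf_add_left, bf_add_left, bf_smul_left, bf_smul_left, bf_diag_single_left,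
        bf_diag_single_left, bf_diag_single_left, ← hu, uk, ul, um]
      ring
    have hbn : bf (diagonal a) u u ≠ 0 := by rw [hb]; exact hN
    have key : ∀ p q : Fin n, (q = k ∨ q = l) →
        h p p * τ (i (rf (diagonal a) u p q)) = i (rf (diagonal a) u p q) * h q q := by
      intro p q hq
      rcases Nat.lt_or_ge 3 n with h4 | h3
      · obtain ⟨j, hj⟩ := exists_not_mem ({k, l, m} : Finset (Fin n))
          (lt_of_le_of_lt Finset.card_le_three (by omega))
        simp only [Finset.mem_insert, Finset.mem_singleton, not_or] at hj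
        obtain ⟨hjk, hjl, hjm⟩ := hj
        have uj : u j = 0 := by simp [hu, Pi.single_apply, hjk, hjl, hjm]
        refine stepE_four ha hh H hd hbn uj p q ?_
        rcases hq with rfl | rfl
        · exact fun h => hjk h.symm
        · exact fun h => hjl h.symm
      · exact stepE_three hh H hd (by omega) hbn p q
    have ent : ∀ p q, rf (diagonal a) u p q = (if p = q then 1 else 0)
        - 2 / (a k + c ^ 2 * a l + d ^ 2 * a m) * (u p * (a q * u q)) := by
      intro p q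
      rw [rf_apply, hb, mulVec_diagonal]
    refine ⟨?_, ?_, ?_⟩
    · have := key k k (Or.inl rfl)
      rw [ent, if_pos rfl, uk, one_mul, mul_one, mul_comm (i _)] at this
      exact mul_left_cancel₀ (hne k) this
    · have := key l l (Or.inr rfl)
      rw [ent, if_pos rfl, ul, mul_comm (i _)] at this
      have h3 : c * (a l * c) = c ^ 2 * a l := by ring
      rw [h3] at this
      exact mul_left_cancel₀ (hne l) this
    · have := key k l (Or.inr rfl)
      rw [ent, if_neg hkl, uk, ul, one_mul, zero_sub] at this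
      exact this
  -- choice of `d`
  have hdN : ∀ k l m : Fin n, ∀ c : F0, ∃ d : F0, a k + c ^ 2 * a l + d ^ 2 * a m ≠ 0 := by
    intro k l m c
    by_cases h0 : a k + c ^ 2 * a l = 0
    · exact ⟨1, by rw [h0]; simpa using ha m⟩
    · exact ⟨0, by simpa using h0⟩
  have hthird : ∀ k l : Fin n, ∃ m, k ≠ m ∧ l ≠ m := by
    intro k l
    obtain ⟨m, hm⟩ := exists_not_mem ({k, l} : Finset (Fin n))
      (lt_of_le_of_lt Finset.card_le_two (by omega))
    simp only [Finset.mem_insert, Finset.mem_singleton, not_or] at hm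
    exact ⟨m, fun h => hm.1 h.symm, fun h => hm.2 h.symm⟩
  set Fix : Subfield F0 := RingHom.eqLocusField ((τ : F →+* F).comp i) i with hFix
  have memFix : ∀ x, x ∈ Fix ↔ τ (i x) = i x := fun x => Iff.rfl
  have key2 : ∀ k l : Fin n, k ≠ l → ∀ c : F0, c ^ 2 * a l / a k ∈ Fix := by
    intro k l hkl c
    obtain ⟨m, hkm, hlm⟩ := hthird k l
    obtain ⟨d, hN⟩ := hdN k l m c
    obtain ⟨h1, h3, -⟩ := hE k l m hkl hkm hlm c d hN
    have e : c ^ 2 * a l / a k
        = (1 - (1 - 2 / (a k + c ^ 2 * a l + d ^ 2 * a m) * (c ^ 2 * a l))) /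
          (1 - (1 - 2 / (a k + c ^ 2 * a l + d ^ 2 * a m) * a k)) := by
      have := ha k
      field_simp
      ring
    rw [e]
    exact Fix.div_mem (Fix.sub_mem Fix.one_mem ((memFix _).2 h3))
      (Fix.sub_mem Fix.one_mem ((memFix _).2 h1))
  have hsq : ∀ c : F0, c ^ 2 ∈ Fix := by
    intro c
    have h01 : (⟨0, by omega⟩ : Fin n) ≠ ⟨1, by omega⟩ := by simp
    have e : c ^ 2 = (c ^ 2 * a ⟨1, by omega⟩ / a ⟨0, by omega⟩) /
        (1 ^ 2 * a ⟨1, by omega⟩ / a ⟨0, by omega⟩) := by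
      have := ha ⟨0, by omega⟩
      have := ha ⟨1, by omega⟩
      field_simp
    rw [e]
    exact Fix.div_mem (key2 _ _ h01 c) (key2 _ _ h01 1)
  have hall : ∀ c : F0, τ (i c) = i c := by
    intro c
    rw [← memFix]
    have e : c = ((c + 1) / 2) ^ 2 - ((c - 1) / 2) ^ 2 := by
      field_simp; ring
    rw [e]
    exact Fix.sub_mem (hsq _) (hsq _)
  refine ⟨hall, h ⟨0, by omega⟩ ⟨0, by omega⟩, ?_⟩
  have hα : ∀ k l : Fin n, k ≠ l → h k k = h l l := by
    intro k l hkl
    obtain ⟨m, hkm, hlm⟩ := hthird k l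
    obtain ⟨d, hN⟩ := hdN k l m 1
    obtain ⟨-, -, h3⟩ := hE k l m hkl hkm hlm 1 d hN
    rw [hall, mul_comm] at h3
    refine mul_left_cancel₀ ?_ h3
    rw [Ne, map_eq_zero_iff i i.injective, neg_eq_zero]
    exact mul_ne_zero (div_ne_zero h2 hN) (mul_ne_zero (ha l) one_ne_zero)
  ext p q
  rw [Matrix.smul_apply, Matrix.one_apply, smul_eq_mul]
  split_ifs with hpq
  · subst hpq
    rw [mul_one]
    by_cases hp : p = ⟨0, by omega⟩
    · rw [hp]
    · exact hα _ _ hp
  · rw [mul_zero]; exact hd p q hpq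

/-- [P1] rigidity of the special orthogonal group over a subfield -/
theorem rigO [Fintype F0] (i : F0 →+* F) (h2 : (2 : F0) ≠ 0) (hn : 3 ≤ n)
    (G : Matrix (Fin n) (Fin n) F0) (hG : Gᵀ = G) (hdet : G.det ≠ 0) (h : GL (Fin n) F)
    (τ : F ≃+* F)
    (H : ∀ s : SpecialLinearGroup (Fin n) F0, s.1ᵀ * G * s.1 = G →
      ∃ z : F, h.1 * (s.1.map i).map τ = z • ((s.1.map i) * h.1)) :
    (∀ x : F0, τ (i x) = i x) ∧ ∃ c : F, h.1 = c • (1 : Matrix (Fin n) (Fin n) F) := by
  obtain ⟨P0, a, hP0, hPD⟩ := exists_diag h2 G hG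
  obtain ⟨U, rfl⟩ := hP0
  set P : Matrix (Fin n) (Fin n) F0 := (U : Matrix (Fin n) (Fin n) F0) with hP
  set P' : Matrix (Fin n) (Fin n) F0 := ((U⁻¹ : (Matrix (Fin n) (Fin n) F0)ˣ) :
    Matrix (Fin n) (Fin n) F0) with hP'
  have hPP' : P * P' = 1 := U.mul_inv
  have hP'P : P' * P = 1 := U.inv_mul
  have hdP : P.det * P'.det = 1 := by rw [← det_mul, hPP', det_one]
  have ha : ∀ j, a j ≠ 0 := by
    have h1 : (diagonal a).det ≠ 0 := by
      rw [← hPD, det_mul, det_mul, det_transpose]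
      have : P.det ≠ 0 := left_ne_zero_of_mul_eq_one hdP
      exact mul_ne_zero (mul_ne_zero this hdet) this
    rw [det_diagonal] at h1
    intro j
    exact Finset.prod_ne_zero_iff.1 h1 j (Finset.mem_univ j)
  set Φ := PhiM (F := F) n i with hΦ
  set Ψ := PsiM n i τ with hΨ
  have hu : IsUnit (Φ P' * h.1 * Ψ P) :=
    ((IsUnit.map Φ (Units.isUnit U⁻¹)).mul h.isUnit).mul (IsUnit.map Ψ (Units.isUnit U))
  have H' : ∀ X : Matrix (Fin n) (Fin n) F0, X.det = 1 → Xᵀ * diagonal a * X = diagonal a →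
      ∃ z : F, Q Φ Ψ (Φ P' * h.1 * Ψ P) X z := by
    intro X hX hXD
    have hs : (P * X * P').det = 1 := by
      rw [det_mul, det_mul, hX, mul_one, hdP]
    have hiso : (P * X * P')ᵀ * G * (P * X * P') = G := by
      rw [transpose_mul, transpose_mul]
      calc P'ᵀ * (Xᵀ * Pᵀ) * G * (P * X * P') = P'ᵀ * (Xᵀ * (Pᵀ * G * P) * X) * P' := by
            simp only [Matrix.mul_assoc]
        _ = P'ᵀ * (Pᵀ * G * P) * P' := by rw [hPD, hXD]
        _ = (P * P')ᵀ * G * (P * P') := by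
            rw [transpose_mul]; simp only [Matrix.mul_assoc]
        _ = G := by rw [hPP', transpose_one, one_mul, mul_one]
    obtain ⟨z, hz⟩ := H ⟨P * X * P', hs⟩ hiso
    have hz' : h.1 * Ψ (P * X * P') = z • (Φ (P * X * P') * h.1) := hz
    refine ⟨z, ?_⟩
    unfold Q
    have e1 : P * X = (P * X * P') * P := by rw [Matrix.mul_assoc, hP'P, mul_one]
    have e2 : P' * (P * X * P') = X * P' := by
      rw [← Matrix.mul_assoc, ← Matrix.mul_assoc, hP'P, one_mul]
    calc Φ P' * h.1 * Ψ P * Ψ X = Φ P' * h.1 * Ψ (P * X) := by rw [map_mul, mul_assoc]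
      _ = Φ P' * (h.1 * Ψ (P * X * P')) * Ψ P := by
          have e4 : Ψ (P * X) = Ψ (P * X * P') * Ψ P := by rw [← map_mul, ← e1]
          rw [e4]; simp only [mul_assoc]
      _ = z • (Φ (P' * (P * X * P')) * h.1 * Ψ P) := by
          rw [hz', mul_smul_comm, smul_mul_assoc, map_mul Φ P']; simp only [mul_assoc]
      _ = z • (Φ X * (Φ P' * h.1 * Ψ P)) := by
          rw [e2, map_mul]; simp only [mul_assoc]
  obtain ⟨hall, c, hc⟩ := rig_diag i τ a _ h2 ha hu H' hn
  refine ⟨hall, c, ?_⟩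
  have hΨP : Ψ P = Φ P := by
    ext p q
    exact hall (P p q)
  rw [hΨP] at hc
  have e3 : Φ P * Φ P' = 1 := by rw [← map_mul, hPP', map_one]
  calc h.1 = (Φ P * Φ P') * h.1 * (Φ P * Φ P') := by rw [e3, one_mul, mul_one]
    _ = Φ P * (Φ P' * h.1 * Φ P) * Φ P' := by simp only [mul_assoc]
    _ = c • (1 : Matrix (Fin n) (Fin n) F) := by
        rw [hc, mul_smul_comm, mul_one, smul_mul_assoc, e3]

end Main

end Cfsg.Agent.Lib.Helper67.LBP
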