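/-
Piece [Q4] `hc_UG` of bulletin #1111/#1112 (helper80's farm for S2687), by helper67.
`hc_UG_of` takes the conclusion of [Q3'] `descent` as a hypothesis.
-/
import Cfsg.Agent.Lib.Helper80.LBP.Gen
import Cfsg.Agent.Lib.Helper80.LBP.P4
import Cfsg.Agent.Lib.Helper43.PU.Coset
import Cfsg.Agent.Lib.Helper43.PU.FacThm
import Cfsg.Agent.Lib.Helper44.GraphPSUTr
import Cfsg.Agent.Lib.Helper67.LBP1
import Cfsg.Agent.Lib.Helper95.LBR
import Cfsg.Agent.Lib.Helper95.LBP9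

set_option autoImplicit false

namespace Cfsg.Agent.Lib.Helper67.LBP

open Matrix Cfsg.Agent.Lib.Helper43.PA Cfsg.Agent.Lib.Helper43.PU Cfsg.Agent.Lib.Helper44
open Cfsg.Agent.Lib.Helper80.LBP

variable {n q : ℕ} {F : Type*} [Field F] [Fintype F]

/-- the conclusion of [Q3'] `descent` for a given `g`. -/
def DescentConcl (hF : Fintype.card F = q ^ 2) (g : ↥(Cfsg.GU n F q)) : Prop :=
    ∃ (x : GL (Fin n) F) (A : GL (Fin n) ↥(fixK (barE hF))) (u : Fˣ),
      (A.1ᵀ = A.1 ∨ ∃ (m : ℕ) (e : Fin m ⊕ Fin m ≃ Fin n),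
        A = reGL e (JGL m ↥(fixK (barE hF)))) ∧ g.1 = scGL u * (x * (mapGL (barE hF) x)⁻¹) ∧
      ∀ s : SpecialLinearGroup (Fin n) F,
        ((∃ hs : s ∈ Cfsg.SU n F q, (conjSU g * fieldSU (barE hF) : MulAut ↥(Cfsg.SU n F q)) ⟨s, hs⟩
            = ⟨s, hs⟩) ↔
          ∃ s0 : SpecialLinearGroup (Fin n) ↥(fixK (barE hF)),
            (conjSL A * invT : MulAut (SpecialLinearGroup (Fin n) ↥(fixK (barE hF)))) s0 = s0 ∧
            s.1 = x.1 * s0.1.map (fixK (barE hF)).subtype * (x⁻¹ : GL (Fin n) F).1)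

theorem eq_of_mulVec_eq {M N : Matrix (Fin n) (Fin n) F} (h : ∀ v, M *ᵥ v = N *ᵥ v) : M = N := by
  ext i j
  have := congrFun (h (Pi.single j 1)) i
  rwa [mulVec_single_one, mulVec_single_one] at this

/-- the multiplier relation obtained from a fixed point. -/
theorem rel_of_fix (hF : Fintype.card F = q ^ 2) (g h : ↥(Cfsg.GU n F q)) (τ : F ≃+* F)
    (ha : ∀ k ∈ LLg (conjSU g * fieldSU (barE hF) : MulAut ↥(Cfsg.SU n F q)),
      (cGU h * fAU τ : MulAut (Cfsg.PSU n F q)) k = k)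
    (x : GL (Fin n) F) (T0 : Matrix (Fin n) (Fin n) F)
    (s : SpecialLinearGroup (Fin n) F) (hsT : s.1 = x.1 * T0 * (x⁻¹ : GL (Fin n) F).1)
    (hs : ∃ hs : s ∈ Cfsg.SU n F q,
      (conjSU g * fieldSU (barE hF) : MulAut ↥(Cfsg.SU n F q)) ⟨s, hs⟩ = ⟨s, hs⟩) :
    ∃ z : F, (x⁻¹ * h.1 * mapGL τ x : GL (Fin n) F).1 * T0.map τ
      = z • (T0 * (x⁻¹ * h.1 * mapGL τ x : GL (Fin n) F).1) := by
  obtain ⟨hsU, hfix⟩ := hs
  have h1 := ha _ (mk_mem_LLg hfix)
  rw [MulAut.mul_apply, fAU_mk', cGU_mk'] at h1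
  obtain ⟨z, hz⟩ := exists_scalar_of_mk_eq hF h1.symm
  refine ⟨z, ?_⟩
  have h2 : (conjSU h (fieldSU τ ⟨s, hsU⟩)).1.1 = z • s.1 := by
    apply eq_of_mulVec_eq
    intro v
    rw [hz v, smul_mulVec]
  rw [conjSU_coe, conjSL_coe, fieldSU_coe, fieldSL_coe] at h2
  change h.1.1 * s.1.map τ * (h.1⁻¹ : GL (Fin n) F).1 = z • s.1 at h2
  have e1 : s.1.map τ = (mapGL τ x).1 * T0.map τ * (mapGL τ x⁻¹).1 := by
    rw [hsT, mapGL_coe, mapGL_coe]
    ext i j
    simp only [Matrix.map_apply, Matrix.mul_apply, map_sum, map_mul, Finset.sum_mul]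
  have e2 : (mapGL τ x⁻¹).1 * (mapGL τ x).1 = 1 := by
    rw [← Units.val_mul, ← map_mul, inv_mul_cancel, map_one]; rfl
  have e3 : (h.1⁻¹ : GL (Fin n) F).1 * h.1.1 = 1 := GL_inv_mul h.1
  have e4 : (x⁻¹ : GL (Fin n) F).1 * x.1 = 1 := GL_inv_mul x
  have e5 : (x⁻¹ * h.1 * mapGL τ x : GL (Fin n) F).1
      = (x⁻¹ : GL (Fin n) F).1 * h.1.1 * (mapGL τ x).1 := rfl
  rw [e5]
  calc (x⁻¹ : GL (Fin n) F).1 * h.1.1 * (mapGL τ x).1 * T0.map τ
      = (x⁻¹ : GL (Fin n) F).1 * h.1.1 * (mapGL τ x).1 * T0.map τ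
          * ((mapGL τ x⁻¹).1 * ((h.1⁻¹ : GL (Fin n) F).1 * h.1.1) * (mapGL τ x).1) := by
        rw [e3, Matrix.mul_one, e2, Matrix.mul_one]
    _ = (x⁻¹ : GL (Fin n) F).1 * (h.1.1 * ((mapGL τ x).1 * T0.map τ * (mapGL τ x⁻¹).1)
          * (h.1⁻¹ : GL (Fin n) F).1) * (h.1.1 * (mapGL τ x).1) := by
        simp only [Matrix.mul_assoc]
    _ = (x⁻¹ : GL (Fin n) F).1 * (z • (x.1 * T0 * (x⁻¹ : GL (Fin n) F).1))
          * (h.1.1 * (mapGL τ x).1) := by rw [← e1, h2, hsT]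
    _ = z • (((x⁻¹ : GL (Fin n) F).1 * x.1) * T0 * ((x⁻¹ : GL (Fin n) F).1 * h.1.1
          * (mapGL τ x).1)) := by
        rw [Matrix.mul_smul, Matrix.smul_mul]; simp only [Matrix.mul_assoc]
    _ = z • (T0 * ((x⁻¹ : GL (Fin n) F).1 * h.1.1 * (mapGL τ x).1)) := by
        rw [e4, Matrix.one_mul]

theorem eq_one_or_eq_of_mem_zpowers {σ τ : F ≃+* F} (hσ : σ * σ = 1)
    (h : τ ∈ Subgroup.zpowers σ) : τ = 1 ∨ τ = σ := by
  obtain ⟨k, rfl⟩ := Subgroup.mem_zpowers_iff.1 h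
  rcases Int.even_or_odd' k with ⟨m, rfl | rfl⟩
  · left
    rw [_root_.zpow_mul, zpow_two, hσ, _root_.one_zpow]
  · right
    rw [_root_.zpow_add, _root_.zpow_mul, zpow_two, hσ, _root_.one_zpow, one_mul, zpow_one]

theorem hc_UG_of (hF : Fintype.card F = q ^ 2) (h2 : (2 : F) ≠ 0) (hn : 3 ≤ n) (hfac : Fac n F q)
    (g : ↥(Cfsg.GU n F q)) (hg : (cGU g * fAU (barE hF)) ^ 2 = 1) (hd : DescentConcl hF g)
    (a : MulAut (Cfsg.PSU n F q))
    (ha : ∀ k ∈ LLg (conjSU g * fieldSU (barE hF) : MulAut ↥(Cfsg.SU n F q)), a k = k) :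
    a ^ 2 = 1 := by
  obtain ⟨h, τ, rfl⟩ := hfac a
  obtain ⟨x, A, u, hA, hgx, hs⟩ := hd
  set h' : GL (Fin n) F := x⁻¹ * h.1 * mapGL τ x with hh'
  have key : ∀ s0 : SpecialLinearGroup (Fin n) ↥(fixK (barE hF)),
      (conjSL A * invT : MulAut (SpecialLinearGroup (Fin n) ↥(fixK (barE hF)))) s0 = s0 →
      ∃ z : F, h'.1 * (s0.1.map (fixK (barE hF)).subtype).map τ
        = z • (s0.1.map (fixK (barE hF)).subtype * h'.1) := by
    intro s0 hs0
    have hdet : (x.1 * s0.1.map (fixK (barE hF)).subtype * (x⁻¹ : GL (Fin n) F).1).det = 1 := by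
      have h1 : (s0.1.map (fixK (barE hF)).subtype).det = 1 := by
        have := RingHom.map_det (fixK (barE hF)).subtype s0.1
        rw [s0.2, map_one] at this
        exact this.symm
      have h3 : x.1.det * (x⁻¹ : GL (Fin n) F).1.det = 1 := by
        rw [← det_mul, GL_mul_inv, det_one]
      rw [det_mul, det_mul, h1, mul_one, h3]
    exact rel_of_fix hF g h τ ha x _ ⟨_, hdet⟩ rfl ((hs _).2 ⟨s0, hs0, rfl⟩)
  have rig : (∀ y : ↥(fixK (barE hF)), τ ((fixK (barE hF)).subtype y) = (fixK (barE hF)).subtype y) ∧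
      ∃ c : F, h'.1 = c • (1 : Matrix (Fin n) (Fin n) F) := by
    rcases hA with hA | ⟨m, e, rfl⟩
    · have : Fintype ↥(fixK (barE hF)) := Fintype.ofFinite _
      have h20 : (2 : ↥(fixK (barE hF))) ≠ 0 := by
        intro h0
        apply h2
        have := congrArg (fixK (barE hF)).subtype h0
        rw [map_zero, map_ofNat] at this
        exact this
      have hdet : ((A⁻¹ : GL (Fin n) ↥(fixK (barE hF))).1).det ≠ 0 :=
        ((Matrix.isUnit_iff_isUnit_det _).1 (A⁻¹ : GL (Fin n) ↥(fixK (barE hF))).isUnit).ne_zero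
      exact rigO (fixK (barE hF)).subtype h20 hn _ (inv_transpose_of_symm hA) hdet h' τ
        (fun s0 hs0 => key s0 (fix_of_isom A s0 hs0))
    · have hm : 1 ≤ m := by
        have := Fintype.card_congr e
        simp at this
        omega
      exact Cfsg.Agent.Lib.Helper95.LBP.rigS (fixK (barE hF)).subtype hm e h' τ key
  obtain ⟨hτ, c, hc⟩ := rig
  have hc0 : c ≠ 0 := by
    rintro rfl
    have h7 := h'.isUnit
    rw [hc, zero_smul] at h7
    have : Nonempty (Fin n) := ⟨⟨0, by omega⟩⟩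
    exact not_isUnit_zero h7
  have hh's : h' = scGL (Units.mk0 c hc0) := by
    apply Units.ext
    rw [hc, scGL_coe]
    ext i j
    simp [Matrix.scalar_apply, Matrix.diagonal_apply, Matrix.one_apply]
  have hτz : τ ∈ Subgroup.zpowers (barE hF) := by
    apply Cfsg.Agent.Lib.Helper95.LBP.mem_zpowers_of_fix'
    intro y hy
    obtain ⟨y0, rfl⟩ := (fixK_iff (barE hF) y).1 hy
    exact hτ y0
  -- `h = x * scalar * (τ x)⁻¹`
  have hh : h.1 = scGL (Units.mk0 c hc0) * (x * (mapGL τ x)⁻¹) := by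
    have e1 : h.1 = x * h' * (mapGL τ x)⁻¹ := by rw [hh']; group
    rw [e1, hh's, ← scGL_comm, mul_assoc]
  rcases eq_one_or_eq_of_mem_zpowers (barE_mul_self hF) hτz with rfl | rfl
  · have h1 : cGU h = 1 := by
      apply cGU_eq_one_of_scalar (a := c)
      intro v
      have e2 : h.1 = scGL (Units.mk0 c hc0) := by
        rw [hh]
        have : mapGL (1 : F ≃+* F) x = x := by
          apply Units.ext
          rw [mapGL_coe]
          ext i j
          rfl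
        rw [this, mul_inv_cancel, mul_one]
      rw [e2, scGL_mulVec]
      rfl
    rw [h1, map_one, one_mul, one_pow]
  · have h1 : cGU h = cGU g := by
      apply cGU_eq_of_scalar (u := Units.mk0 c hc0 * u⁻¹)
      rw [hh, hgx, map_mul, mul_assoc, ← mul_assoc (scGL u⁻¹), ← map_mul, inv_mul_cancel, map_one,
        one_mul]
    rw [h1]
    exact hg

end Cfsg.Agent.Lib.Helper67.LBP
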