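/-
Piece [Q5] `hb_UG` of bulletin #1111/#1112 (helper80's farm for S2687), by helper67.
`hb_UG_of` takes the conclusion of [Q3'] `descent` as a hypothesis (`DescentConcl`, see LBQ4).
-/
import Cfsg.Agent.Lib.Helper67.LBQ4
import Cfsg.Agent.Lib.Helper91.LBP3
import Cfsg.Agent.Lib.Helper91.LBP8

set_option autoImplicit false

namespace Cfsg.Agent.Lib.Helper67.LBP

open Matrix Cfsg.Agent.Lib.Helper43.PA Cfsg.Agent.Lib.Helper43.PU Cfsg.Agent.Lib.Helper44
open Cfsg.Agent.Lib.Helper80.LBP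

section Gen

variable {S X Y : Type*} [Group S] [Group X] [Group Y]

/-- transfer of a divisibility statement along two homomorphisms with the same kernel. -/
theorem transfer_dvd (f : S →* X) (g : S →* Y) (hker : f.ker = g.ker) (d : ℕ)
    (hY : ∀ M : Subgroup Y, M ≤ g.range → (∀ l ∈ g.range, ∀ k ∈ M, l * k * l⁻¹ ∈ M) → M ≠ ⊥ →
      d ∣ Nat.card M)
    (M : Subgroup X) (hM : M ≤ f.range) (hnorm : ∀ l ∈ f.range, ∀ k ∈ M, l * k * l⁻¹ ∈ M)
    (hne : M ≠ ⊥) : d ∣ Nat.card M := by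
  set N : Subgroup S := M.comap f with hN
  have h1 : N.map f = M := by
    rw [hN, Subgroup.map_comap_eq, inf_eq_right.2 hM]
  have hcard : Nat.card (N.map f) = Nat.card (N.map g) := by
    have hk : (f.comp N.subtype).ker = (g.comp N.subtype).ker := by
      ext t
      have : (t : S) ∈ f.ker ↔ (t : S) ∈ g.ker := by rw [hker]
      exact this
    obtain ⟨e⟩ := range_equiv_of_ker_eq (f.comp N.subtype) (g.comp N.subtype) hk
    have r1 : (f.comp N.subtype).range = N.map f := by
      rw [MonoidHom.range_comp, Subgroup.range_subtype]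
    have r2 : (g.comp N.subtype).range = N.map g := by
      rw [MonoidHom.range_comp, Subgroup.range_subtype]
    rw [← r1, ← r2]
    exact Nat.card_congr e.toEquiv
  rw [← h1, hcard]
  apply hY
  · exact Subgroup.map_le_range g N
  · rintro _ ⟨s, rfl⟩ _ ⟨t, ht, rfl⟩
    refine ⟨s * t * s⁻¹, ?_, by simp⟩
    show f (s * t * s⁻¹) ∈ M
    rw [map_mul, map_mul, map_inv]
    exact hnorm _ ⟨s, rfl⟩ _ ht
  · intro hbot
    apply hne
    rw [← h1, eq_bot_iff]
    rintro _ ⟨t, ht, rfl⟩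
    have h2 : g t ∈ N.map g := ⟨t, ht, rfl⟩
    rw [hbot, Subgroup.mem_bot] at h2
    have h3 : t ∈ f.ker := by rw [hker]; exact h2
    exact h3

end Gen

variable {n q : ℕ} {F : Type*} [Field F] [Fintype F]

theorem hb_UG_of (hF : Fintype.card F = q ^ 2) (h2 : (2 : F) ≠ 0) (hn : 3 ≤ n)
    (g : ↥(Cfsg.GU n F q)) (hd : DescentConcl hF g)
    (M : Subgroup (Cfsg.PSU n F q))
    (hM : M ≤ LLg (conjSU g * fieldSU (barE hF) : MulAut ↥(Cfsg.SU n F q)))
    (hnorm : ∀ l ∈ LLg (conjSU g * fieldSU (barE hF) : MulAut ↥(Cfsg.SU n F q)),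
      ∀ k ∈ M, l * k * l⁻¹ ∈ M) (hne : M ≠ ⊥) : 2 ∣ Nat.card M := by
  obtain ⟨x, A, u, hA, hgx, hs⟩ := hd
  set φ0 : MulAut (SpecialLinearGroup (Fin n) ↥(fixK (barE hF))) := conjSL A * invT with hφ0
  set S0 : Subgroup (SpecialLinearGroup (Fin n) ↥(fixK (barE hF))) :=
    MonoidHom.eqLocus φ0.toMonoidHom (MonoidHom.id _) with hS0
  set θ : MulAut ↥(Cfsg.SU n F q) := conjSU g * fieldSU (barE hF) with hθ
  let g1 : SpecialLinearGroup (Fin n) ↥(fixK (barE hF)) →* SpecialLinearGroup (Fin n) F :=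
    (conjSL x).toMonoidHom.comp (SpecialLinearGroup.map (fixK (barE hF)).subtype)
  have g1c : ∀ s0, (g1 s0).1 = x.1 * s0.1.map (fixK (barE hF)).subtype * (x⁻¹ : GL (Fin n) F).1 :=
    fun _ => rfl
  have hmem : ∀ s0 : S0, ∃ hs : g1 s0.1 ∈ Cfsg.SU n F q, θ ⟨g1 s0.1, hs⟩ = ⟨g1 s0.1, hs⟩ :=
    fun s0 => (hs _).2 ⟨s0.1, s0.2, g1c _⟩
  let f1' : S0 →* ↥(Cfsg.SU n F q) :=
    (g1.comp S0.subtype).codRestrict (Cfsg.SU n F q) (fun s0 => (hmem s0).1)
  let f1 : S0 →* Cfsg.PSU n F q := (QuotientGroup.mk' (Subgroup.center ↥(Cfsg.SU n F q))).comp f1'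
  let f2 : S0 →* ProjectiveSpecialLinearGroup (Fin n) ↥(fixK (barE hF)) :=
    (QuotientGroup.mk' (Subgroup.center _)).comp S0.subtype
  have r1 : f1.range = LLg θ := by
    apply le_antisymm
    · rintro _ ⟨s0, rfl⟩
      exact mk_mem_LLg (hmem s0).2
    · rintro _ ⟨t, ht, rfl⟩
      obtain ⟨s0, hs0, hts⟩ := (hs t.1).1 ⟨t.2, ht⟩
      refine ⟨⟨s0, hs0⟩, ?_⟩
      show (QuotientGroup.mk (f1' ⟨s0, hs0⟩) : Cfsg.PSU n F q) = QuotientGroup.mk t
      congr 1
      apply SU_ext'
      rw [hts]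
      rfl
  have r2 : f2.range = LL φ0 := by
    rw [MonoidHom.range_comp, Subgroup.range_subtype]
    rfl
  have f1c : ∀ s0 : S0, (f1' s0).1.1
      = x.1 * s0.1.1.map (fixK (barE hF)).subtype * (x⁻¹ : GL (Fin n) F).1 := fun _ => rfl
  have hker : f1.ker = f2.ker := by
    ext s0
    have k1 : s0 ∈ f1.ker ↔ f1' s0 ∈ Subgroup.center ↥(Cfsg.SU n F q) := by
      rw [MonoidHom.mem_ker]
      exact QuotientGroup.eq_one_iff _
    have k2 : s0 ∈ f2.ker ↔ s0.1 ∈ Subgroup.center
        (SpecialLinearGroup (Fin n) ↥(fixK (barE hF))) := by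
      rw [MonoidHom.mem_ker]
      exact QuotientGroup.eq_one_iff _
    rw [k1, k2]
    constructor
    · intro h
      obtain ⟨a, ha⟩ := Cfsg.Agent.Lib.Helper5.SU_center_scalar hF _ h
      rw [f1c] at ha
      have hT : s0.1.1.map (fixK (barE hF)).subtype = a • (1 : Matrix (Fin n) (Fin n) F) := by
        calc s0.1.1.map (fixK (barE hF)).subtype
            = ((x⁻¹ : GL (Fin n) F).1 * x.1) * s0.1.1.map (fixK (barE hF)).subtype
                * ((x⁻¹ : GL (Fin n) F).1 * x.1) := by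
              rw [GL_inv_mul, Matrix.one_mul, Matrix.mul_one]
          _ = (x⁻¹ : GL (Fin n) F).1 * (x.1 * s0.1.1.map (fixK (barE hF)).subtype
                * (x⁻¹ : GL (Fin n) F).1) * x.1 := by simp only [Matrix.mul_assoc]
          _ = a • (1 : Matrix (Fin n) (Fin n) F) := by
              rw [ha, Matrix.scalar_apply, ← Matrix.smul_one_eq_diagonal, Matrix.mul_smul,
                Matrix.mul_one, Matrix.smul_mul, GL_inv_mul]
      set r := s0.1.1 ⟨0, by omega⟩ ⟨0, by omega⟩ with hr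
      have hra : (fixK (barE hF)).subtype r = a := by
        have := congrFun (congrFun hT ⟨0, by omega⟩) ⟨0, by omega⟩
        simpa using this
      have hsc : Matrix.scalar (Fin n) r = s0.1.1 := by
        ext i j
        show (fixK (barE hF)).subtype (Matrix.scalar (Fin n) r i j)
          = (fixK (barE hF)).subtype (s0.1.1 i j)
        have := congrFun (congrFun hT i) j
        rw [Matrix.map_apply] at this
        rw [this, Matrix.scalar_apply, Matrix.diagonal_apply, Matrix.smul_apply, Matrix.one_apply]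
        split_ifs
        · rw [hra]; simp
        · simp
      rw [Matrix.SpecialLinearGroup.mem_center_iff]
      refine ⟨r, ?_, hsc⟩
      have := s0.1.2
      rw [← hsc, Matrix.scalar_apply, Matrix.det_diagonal] at this
      simpa using this
    · intro h
      rw [Matrix.SpecialLinearGroup.mem_center_iff] at h
      obtain ⟨r, -, hsc⟩ := h
      have hz : (f1' s0).1.1 = (fixK (barE hF)).subtype r • (1 : Matrix (Fin n) (Fin n) F) := by
        have hT : s0.1.1.map (fixK (barE hF)).subtype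
            = (fixK (barE hF)).subtype r • (1 : Matrix (Fin n) (Fin n) F) := by
          have hsc' : s0.1.1 = Matrix.scalar (Fin n) r := hsc.symm
          rw [hsc']
          ext i j
          rw [Matrix.map_apply, Matrix.scalar_apply, Matrix.diagonal_apply, Matrix.smul_apply,
            Matrix.one_apply]
          split_ifs <;> simp
        rw [f1c, hT, Matrix.mul_smul, Matrix.mul_one, Matrix.smul_mul, GL_mul_inv]
      rw [Subgroup.mem_center_iff]
      intro t
      apply SU_ext'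
      show t.1.1 * (f1' s0).1.1 = (f1' s0).1.1 * t.1.1
      rw [hz, Matrix.mul_smul, Matrix.mul_one, Matrix.smul_mul, Matrix.one_mul]
  have h20 : (2 : ↥(fixK (barE hF))) ≠ 0 := by
    intro h0
    apply h2
    have := congrArg (fixK (barE hF)).subtype h0
    rw [map_zero, map_ofNat] at this
    exact this
  have : Fintype ↥(fixK (barE hF)) := Fintype.ofFinite _
  refine transfer_dvd f1 f2 hker 2 ?_ M (r1 ▸ hM) (r1 ▸ hnorm) hne
  intro M2 hM2 hn2 hne2
  rw [r2] at hM2 hn2
  rcases hA with hA | ⟨m, e, rfl⟩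
  · exact Cfsg.Agent.Lib.Helper91.LBP.hb_O h20 hn A hA M2 hM2 hn2 hne2
  · have hm : 2 ≤ m := by
      have := Fintype.card_congr e
      simp at this
      omega
    exact Cfsg.Agent.Lib.Helper91.LBP.hb_S h20 hm e M2 hM2 hn2 hne2

end Cfsg.Agent.Lib.Helper67.LBP
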