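import Mathlib
import Cfsg.Agent.Lib.Helper1.CoprimeSylow
import Cfsg.Agent.Lib.Lead.Residual

set_option autoImplicit false

/-! Groups with a nilpotent maximal subgroup: common part of the theorems of Thompson and
Deskins--Janko. -/

namespace Cfsg.Agent.Lib.Helper67

variable {G : Type*} [Group G]

theorem isCoatom_map_mk' {M N : Subgroup G} [N.Normal] (hNM : N ≤ M) (hM : IsCoatom M) :
    IsCoatom (M.map (QuotientGroup.mk' N)) := by
  have hcm : (M.map (QuotientGroup.mk' N)).comap (QuotientGroup.mk' N) = M := by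
    rw [Subgroup.comap_map_eq, QuotientGroup.ker_mk', sup_of_le_left hNM]
  constructor
  · intro h
    apply hM.1
    rw [← hcm, h, Subgroup.comap_top]
  · intro K hK
    have h1 : M < K.comap (QuotientGroup.mk' N) := by
      rw [← hcm]
      exact (Subgroup.comap_lt_comap_of_surjective (QuotientGroup.mk'_surjective N)).2 hK
    have h2 := hM.2 _ h1
    rw [← Subgroup.map_comap_eq_self_of_surjective (QuotientGroup.mk'_surjective N) K, h2,
      Subgroup.map_top_of_surjective _ (QuotientGroup.mk'_surjective N)]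

theorem isSolvable_of_quotient_normalCore (M : Subgroup G) [Group.IsNilpotent M]
    (h : Group.IsSolvable (G ⧸ M.normalCore)) : Group.IsSolvable G := by
  have h1 : Group.IsSolvable M.normalCore :=
    Group.isSolvable_of_isSolvable_injective (Subgroup.inclusion_injective M.normalCore_le)
  exact Group.isSolvable_of_ker_le_range M.normalCore.subtype (QuotientGroup.mk' M.normalCore)
    (by rw [QuotientGroup.ker_mk', Subgroup.range_subtype])

theorem normalizer_eq_of_normalCore_eq_bot {M U : Subgroup G} (hM : IsCoatom M)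
    (hcore : M.normalCore = ⊥) (hUM : U ≤ M) (hU : U ≠ ⊥)
    (hMU : M ≤ Subgroup.normalizer (U : Set G)) : Subgroup.normalizer (U : Set G) = M := by
  rcases eq_or_lt_of_le hMU with h | h
  · exact h.symm
  · exfalso
    have h1 := hM.2 _ h
    have h2 : U.Normal := Subgroup.normalizer_eq_top_iff.1 h1
    have h3 : U ≤ M.normalCore := Subgroup.normal_le_normalCore.2 hUM
    rw [hcore, le_bot_iff] at h3
    exact hU h3

/-- In the core-free case the Sylow subgroups of `M` are Sylow subgroups of `G`. -/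
theorem exists_sylow_le_of_normalCore_eq_bot [Finite G] {M : Subgroup G} (hM : IsCoatom M)
    [hnil : Group.IsNilpotent M] (hcore : M.normalCore = ⊥) (p : ℕ) [Fact p.Prime]
    (hp : p ∣ Nat.card M) :
    ∃ P : Sylow p G, (P : Subgroup G) ≤ M ∧ (P : Subgroup G) ≠ ⊥ ∧
      Subgroup.normalizer ((P : Subgroup G) : Set G) = M := by
  have hn : ∀ Q : Sylow p M, (Q : Subgroup M).Normal := by
    have h03 := (Group.isNilpotent_of_finite_tfae (G := M)).out 0 3
    exact (h03.1 hnil) p inferInstance
  let Q : Sylow p M := default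
  have hQn := hn Q
  obtain ⟨h1, h2, h3⟩ := Cfsg.Agent.Lib.Helper1.sylow_map_subtype_props Q
  set P0 : Subgroup G := (Q : Subgroup M).map M.subtype with hP0
  have hne : P0 ≠ ⊥ := by
    intro h
    rw [h, Subgroup.relIndex_bot_left] at h3
    exact h3 hp
  have hMN : M ≤ Subgroup.normalizer (P0 : Set G) := by
    intro m hm
    rw [Subgroup.mem_normalizer_iff]
    intro x
    constructor
    · rintro ⟨y, hy, rfl⟩
      exact ⟨⟨m, hm⟩ * y * ⟨m, hm⟩⁻¹, hQn.conj_mem y hy _, rfl⟩
    · rintro ⟨y, hy, hyx⟩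
      refine ⟨⟨m, hm⟩⁻¹ * y * ⟨m, hm⟩, ?_, ?_⟩
      · have := hQn.conj_mem y hy ⟨m, hm⟩⁻¹
        rwa [inv_inv] at this
      · simp only [Subgroup.subtype_apply, Subgroup.coe_mul, Subgroup.coe_inv] at hyx ⊢
        rw [hyx]; group
  have hN := normalizer_eq_of_normalCore_eq_bot hM hcore h1 hne hMN
  have h4 : ¬ p ∣ P0.relIndex ⊤ := by
    apply Cfsg.Agent.Lib.Helper1.sylow_of_sylow_normalizer le_top h2
    rw [inf_top_eq, hN]
    exact h3
  rw [Subgroup.relIndex_top_right] at h4
  exact ⟨h2.toSylow h4, h1, hne, hN⟩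

/-- A finite group with a nilpotent maximal subgroup `M` having normal `p`-complements for all
primes `p` dividing `|M|` is solvable. -/
theorem isSolvable_of_nilpotent_coatom [Finite G] (M : Subgroup G) (hM : IsCoatom M)
    [Group.IsNilpotent M]
    (hc : ∀ p : ℕ, p.Prime → p ∣ Nat.card M → ∃ K : Subgroup G, K.Normal ∧
      (Nat.card K).Coprime p ∧ ∃ k : ℕ, K.index = p ^ k) : Group.IsSolvable G := by
  classical
  choose! Kp hKn hKc hKi using hc
  let ι := {p : ℕ // p.Prime ∧ p ∣ Nat.card M}
  have hfin : Finite ι := by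
    apply Set.Finite.to_subtype
    apply Set.Finite.subset (Set.finite_Iic (Nat.card M))
    rintro p ⟨-, hp⟩
    exact Nat.le_of_dvd Nat.card_pos hp
  have hnorm : ∀ i : ι, (Kp i.1).Normal := fun i => hKn i.1 i.2.1 i.2.2
  have hnil : ∀ i : ι, Group.IsNilpotent (G ⧸ Kp i.1) := by
    intro i
    have : Fact (i.1).Prime := ⟨i.2.1⟩
    obtain ⟨k, hk⟩ := hKi i.1 i.2.1 i.2.2
    have : IsPGroup i.1 (G ⧸ Kp i.1) := IsPGroup.of_card (n := k) (by
      rw [← Subgroup.index_eq_card, hk])
    exact this.isNilpotent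
  let g : G →* ∀ i : ι, G ⧸ Kp i.1 := MonoidHom.pi (fun i => QuotientGroup.mk' (Kp i.1))
  have hker : ∀ x : G, x ∈ g.ker ↔ ∀ i : ι, x ∈ Kp i.1 := by
    intro x
    rw [MonoidHom.mem_ker]
    constructor
    · intro h i
      have := congrFun h i
      exact (QuotientGroup.eq_one_iff x).1 this
    · intro h
      funext i
      exact (QuotientGroup.eq_one_iff x).2 (h i)
  have hpi : Group.IsSolvable (∀ i : ι, G ⧸ Kp i.1) := by
    have : Group.IsNilpotent (∀ i : ι, G ⧸ Kp i.1) := Group.isNilpotent_pi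
    infer_instance
  by_cases hK : g.ker = ⊥
  · exact Group.isSolvable_of_isSolvable_injective ((MonoidHom.ker_eq_bot_iff g).1 hK)
  set K : Subgroup G := g.ker with hKdef
  have hcop : (Nat.card M).Coprime (Nat.card K) := by
    apply Nat.coprime_of_dvd
    intro p hp hpM hpK
    have h1 : K ≤ Kp p := fun x hx => (hker x).1 hx ⟨p, hp, hpM⟩
    have h2 : Nat.card K ∣ Nat.card (Kp p) := Subgroup.card_dvd_of_le h1
    have h3 := hKc p hp hpM
    exact (Nat.Prime.coprime_iff_not_dvd hp).1 h3.symm (hpK.trans h2)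
  have hcard : Nat.card K ≠ 1 := fun h => hK (Subgroup.card_eq_one.1 h)
  let q := (Nat.card K).minFac
  have hq : q.Prime := Nat.minFac_prime hcard
  have : Fact q.Prime := ⟨hq⟩
  have hKnorm : K.Normal := by rw [hKdef]; infer_instance
  obtain ⟨Q, hQK, hQ, hQi, hMQ⟩ := Cfsg.Agent.Lib.Helper1.exists_invariant_sylow M K
    (by rw [Subgroup.normalizer_eq_top]; exact le_top) hcop (Or.inl inferInstance) q
  have hQne : Q ≠ ⊥ := by
    intro h
    rw [h, Subgroup.relIndex_bot_left] at hQi
    exact hQi (Nat.minFac_dvd _)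
  have hQM : ¬ Q ≤ M := by
    intro h
    apply hQne
    rw [eq_bot_iff]
    intro x hx
    have h1 : x ∈ M ⊓ K := ⟨h hx, hQK hx⟩
    rw [Subgroup.inf_eq_bot_of_coprime hcop] at h1
    exact h1
  have hNQ : Subgroup.normalizer (Q : Set G) = ⊤ := by
    apply hM.2
    refine lt_of_le_of_ne hMQ ?_
    intro h
    exact hQM (h ▸ Subgroup.le_normalizer)
  have hQn : Q.Normal := Subgroup.normalizer_eq_top_iff.1 hNQ
  have hsup : M ⊔ Q = ⊤ := by
    apply hM.2
    refine lt_of_le_of_ne le_sup_left ?_
    intro h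
    exact hQM (h ▸ le_sup_right)
  have hQs : Group.IsSolvable Q := by
    have := hQ.isNilpotent
    infer_instance
  have hGQ : Group.IsSolvable (G ⧸ Q) := by
    have hsurj : Function.Surjective ((QuotientGroup.mk' Q).comp M.subtype) := by
      rw [← MonoidHom.range_eq_top, MonoidHom.range_eq_map, ← Subgroup.map_map,
        ← MonoidHom.range_eq_map, Subgroup.range_subtype]
      have h1 : (M ⊔ Q).map (QuotientGroup.mk' Q) = ⊤ := by
        rw [hsup]
        exact Subgroup.map_top_of_surjective _ (QuotientGroup.mk'_surjective Q)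
      rwa [Subgroup.map_sup, QuotientGroup.map_mk'_self, sup_bot_eq] at h1
    exact Group.isSolvable_of_surjective hsurj
  exact Group.isSolvable_of_ker_le_range Q.subtype (QuotientGroup.mk' Q)
    (by rw [QuotientGroup.ker_mk', Subgroup.range_subtype])

end Cfsg.Agent.Lib.Helper67
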