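import Mathlib
import Cfsg.Agent.Lib.Helper67.PTools
import Cfsg.Agent.Lib.Helper1.CoprimeSylow

set_option autoImplicit false
set_option linter.unusedSimpArgs false

namespace Cfsg.Agent.Lib.Helper67

/-- `n` is a `π`-number -/
def PiNum (π : Set ℕ) (n : ℕ) : Prop := ∀ p : ℕ, p.Prime → p ∣ n → p ∈ π

/-- the `π`-elements form a subgroup -/
def PiClosed (π : Set ℕ) (G : Type*) [Group G] : Prop :=
  ∃ K : Subgroup G, ∀ x : G, x ∈ K ↔ PiNum π (orderOf x)

/-- elementwise form of `π'`-homogeneity, for `q`-subgroups only -/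
def PiHomE (π : Set ℕ) (G : Type*) [Group G] : Prop :=
  ∀ q : ℕ, q.Prime → q ∉ π → ∀ Q : Subgroup G, IsPGroup q Q →
    ∀ u ∈ Subgroup.normalizer (Q : Set G), PiNum π (orderOf u) → ∀ x ∈ Q, u * x = x * u

theorem PiNum.of_dvd {π : Set ℕ} {m n : ℕ} (h : PiNum π n) (hd : m ∣ n) : PiNum π m :=
  fun p hp hpm => h p hp (hpm.trans hd)

theorem PiNum.mul {π : Set ℕ} {m n : ℕ} (hm : PiNum π m) (hn : PiNum π n) : PiNum π (m * n) := by
  intro p hp hd
  rcases (Nat.Prime.dvd_mul hp).1 hd with h | h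
  · exact hm p hp h
  · exact hn p hp h

theorem PiNum.coprime {π : Set ℕ} {m n : ℕ} (hm : PiNum π m) (hn : PiNum πᶜ n) :
    Nat.Coprime m n := by
  rw [Nat.coprime_iff_gcd_eq_one]
  by_contra h
  obtain ⟨p, hp, hd⟩ := Nat.exists_prime_and_dvd h
  exact hn p hp (hd.trans (Nat.gcd_dvd_right _ _)) (hm p hp (hd.trans (Nat.gcd_dvd_left _ _)))

variable {G : Type*} [Group G]

/-- the order of the subgroup of `π`-elements is a `π`-number -/
theorem PiNum.card_of_forall [Finite G] {π : Set ℕ} (K : Subgroup G)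
    (h : ∀ x ∈ K, PiNum π (orderOf x)) : PiNum π (Nat.card K) := by
  intro p hp hd
  have : Fact p.Prime := ⟨hp⟩
  obtain ⟨x, hx⟩ := exists_prime_orderOf_dvd_card' (G := K) p hd
  have := h x x.2 p hp
  rw [Subgroup.orderOf_coe, hx] at this
  exact this dvd_rfl

/-- homogeneity in the form of the statements implies the elementwise form -/
theorem PiHomE.of_relIndex [Finite G] (π : Set ℕ)
    (hhom : ∀ H : Subgroup G, H ≠ ⊥ → (∀ p : ℕ, p.Prime → p ∣ Nat.card ↥H → p ∉ π) →
        ∀ p : ℕ, p.Prime → p ∣ (Subgroup.centralizer (H : Set G)).relIndex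
          (Subgroup.normalizer (H : Set G)) → p ∉ π) : PiHomE π G := by
  intro q hq hqπ Q hQ u hu huπ x hx
  have : Fact q.Prime := ⟨hq⟩
  by_cases hQb : Q = ⊥
  · rw [hQb] at hx
    rw [Subgroup.mem_bot.1 hx]; simp
  have h1 := hhom Q hQb (by
    intro p hp hd
    obtain ⟨n, hn⟩ := hQ.exists_card_eq
    rw [hn] at hd
    rw [(Nat.prime_dvd_prime_iff_eq hp hq).1 (hp.dvd_of_dvd_pow hd)]
    exact hqπ)
  rw [Subgroup.relIndex, ← Subgroup.normalizerMonoidHom_ker, Subgroup.index_ker] at h1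
  set φ := Q.normalizerMonoidHom with hφ
  have h2 : orderOf (φ ⟨u, hu⟩) = 1 := by
    by_contra hne
    obtain ⟨p, hp, hd⟩ := Nat.exists_prime_and_dvd hne
    have d1 : p ∣ Nat.card φ.range := hd.trans (Subgroup.orderOf_dvd_natCard φ.range ⟨_, rfl⟩)
    have d2 : p ∣ orderOf u := by
      have := orderOf_map_dvd φ (⟨u, hu⟩ : Subgroup.normalizer (Q : Set G))
      rw [Subgroup.orderOf_mk] at this
      exact hd.trans this
    exact h1 p hp d1 (huπ p hp d2)
  rw [orderOf_eq_one_iff] at h2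
  have h3 : ((φ ⟨u, hu⟩ ⟨x, hx⟩ : Q) : G) = u * x * u⁻¹ := rfl
  rw [h2] at h3
  simp only [MulAut.one_apply] at h3
  calc u * x = (u * x * u⁻¹) * u := by group
    _ = x * u := by rw [← h3]

/-- `PiHomE` passes to subgroups -/
theorem PiHomE.subgroup {π : Set ℕ} (h : PiHomE π G) (M : Subgroup G) : PiHomE π M := by
  intro q hq hqπ Q hQ u hu huπ x hx
  have h1 := h q hq hqπ (Q.map M.subtype) (hQ.map _) (u : G) (by
    have := Subgroup.le_normalizer_map M.subtype (H := Q) ⟨u, hu, rfl⟩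
    exact this) (by rwa [Subgroup.orderOf_coe]) (x : G) ⟨x, hx, rfl⟩
  exact Subtype.ext h1

/-- extension of a `π`-closed group by a normal `π`-subgroup -/
theorem PiClosed.of_ker_piNum [Finite G] {π : Set ℕ} {Q : Type*} [Group Q] (f : G →* Q)
    (hker : PiNum π (Nat.card f.ker)) (hQ : PiClosed π Q) : PiClosed π G := by
  obtain ⟨T, hT⟩ := hQ
  refine ⟨T.comap f, fun x => ?_⟩
  rw [Subgroup.mem_comap, hT]
  constructor
  · intro h
    have h1 : x ^ orderOf (f x) ∈ f.ker := by
      rw [MonoidHom.mem_ker, map_pow, pow_orderOf_eq_one]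
    have h2 : orderOf x ∣ orderOf (f x) * Nat.card f.ker := by
      apply orderOf_dvd_of_pow_eq_one
      rw [pow_mul]
      have := Subgroup.orderOf_dvd_natCard f.ker h1
      exact orderOf_dvd_iff_pow_eq_one.1 this
    exact (h.mul hker).of_dvd h2
  · intro h
    exact h.of_dvd (orderOf_map_dvd f x)

/-- a subgroup containing all `π`-elements which is `π`-closed -/
theorem PiClosed.of_subgroup {π : Set ℕ} (M : Subgroup G)
    (hM : ∀ x : G, PiNum π (orderOf x) → x ∈ M) (h : PiClosed π M) : PiClosed π G := by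
  obtain ⟨T, hT⟩ := h
  refine ⟨T.map M.subtype, fun x => ?_⟩
  constructor
  · rintro ⟨y, hy, rfl⟩
    have := (hT y).1 hy
    rwa [← Subgroup.orderOf_coe] at this
  · intro h
    refine ⟨⟨x, hM x h⟩, (hT _).2 ?_, rfl⟩
    rwa [Subgroup.orderOf_mk]

theorem PiNum.orderOf_of_map [Finite G] {π : Set ℕ} {Q : Type*} [Group Q] (f : G →* Q)
    (hker : PiNum π (Nat.card f.ker)) (x : G) (h : PiNum π (orderOf (f x))) :
    PiNum π (orderOf x) := by
  have h1 : x ^ orderOf (f x) ∈ f.ker := by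
    rw [MonoidHom.mem_ker, map_pow, pow_orderOf_eq_one]
  have h2 : orderOf x ∣ orderOf (f x) * Nat.card f.ker := by
    apply orderOf_dvd_of_pow_eq_one
    rw [pow_mul]
    have := Subgroup.orderOf_dvd_natCard f.ker h1
    exact orderOf_dvd_iff_pow_eq_one.1 this
  exact (h.mul hker).of_dvd h2

/-- `PiHomE` passes to quotients by normal `π`-subgroups -/
theorem PiHomE.of_surjective [Finite G] {π : Set ℕ} {Q' : Type*} [Group Q'] (f : G →* Q')
    (hf : Function.Surjective f) (hker : PiNum π (Nat.card f.ker)) (h : PiHomE π G) :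
    PiHomE π Q' := by
  intro q hq hqπ Qb hQb ub hub hubπ xb hxb
  have : Fact q.Prime := ⟨hq⟩
  have : Finite Q' := Finite.of_surjective f hf
  set X := Qb.comap f with hX
  set L := f.ker with hL
  have hLX : L ≤ X := by
    intro l hl
    rw [hX, Subgroup.mem_comap, MonoidHom.mem_ker.1 hl]
    exact Qb.one_mem
  -- a q-element lifting xb
  obtain ⟨kb, hkb⟩ := hQb ⟨xb, hxb⟩
  have hxbord : ∃ k, orderOf xb = q ^ k := by
    have h1 : xb ^ q ^ kb = 1 := by
      have := congrArg Subtype.val hkb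
      simpa using this
    obtain ⟨j, -, hj⟩ := (Nat.dvd_prime_pow hq).1 (orderOf_dvd_of_pow_eq_one h1)
    exact ⟨j, hj⟩
  obtain ⟨k, hk⟩ := hxbord
  obtain ⟨x1, hx1, k1, hk1⟩ := exists_lift_pElement f hf hq xb k hk
  have hx1X : x1 ∈ X := by rw [hX, Subgroup.mem_comap, hx1]; exact hxb
  -- a Sylow q-subgroup of X containing x1
  have hz : IsPGroup q ((Subgroup.zpowers x1).subgroupOf X) :=
    (IsPGroup.of_card (n := k1) (by rw [Nat.card_zpowers, hk1])).comap_subtype
  obtain ⟨S, hS⟩ := hz.exists_le_sylow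
  obtain ⟨hQX, hQp, hQidx⟩ := Cfsg.Agent.Lib.Helper1.sylow_map_subtype_props S
  set Q := (S : Subgroup X).map X.subtype with hQ
  have hx1Q : x1 ∈ Q :=
    ⟨⟨x1, hx1X⟩, hS (Subgroup.mem_subgroupOf.2 (Subgroup.mem_zpowers x1)), rfl⟩
  -- X = Q L
  have hqL : ¬ q ∣ Nat.card L := fun hd => hqπ (hker q hq hd)
  have hXQL : X ≤ Q ⊔ L := by
    rw [← Subgroup.relIndex_eq_one]
    have d1 : (Q ⊔ L).relIndex X ∣ Q.relIndex X := Subgroup.relIndex_dvd_of_le_left X le_sup_left
    have d2 : (Q ⊔ L).relIndex X ∣ L.relIndex X := Subgroup.relIndex_dvd_of_le_left X le_sup_right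
    rw [hL, Subgroup.relIndex_ker, hX, Subgroup.map_comap_eq_self_of_surjective hf] at d2
    obtain ⟨n, hn⟩ := hQb.exists_card_eq
    rw [hn] at d2
    obtain ⟨j, -, hj⟩ := (Nat.dvd_prime_pow hq).1 d2
    rcases Nat.eq_zero_or_pos j with rfl | hjpos
    · simpa using hj
    · exfalso
      apply hQidx
      refine dvd_trans ?_ d1
      rw [hj]
      exact dvd_pow_self q hjpos.ne'
  -- lift ub
  obtain ⟨u, hu⟩ := hf ub
  have huX : ∀ x ∈ X, u * x * u⁻¹ ∈ X := by
    intro x hx
    rw [hX, Subgroup.mem_comap] at hx ⊢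
    rw [map_mul, map_mul, map_inv, hu]
    exact (Subgroup.mem_normalizer_iff.1 hub _).1 hx
  obtain ⟨c, hc, hconj⟩ := sylow_conj_in (p := q) X Q (Q.map (MulAut.conj u).toMonoidHom) (by
    rintro _ ⟨y, hy, rfl⟩
    exact huX y (hQX hy)) hQp (hQp.map _) hQidx
  obtain ⟨q0, hq0, l, hl, hql⟩ := Subgroup.mem_sup_of_normal_right.1 (hXQL hc)
  have hw : l * u ∈ Subgroup.normalizer (Q : Set G) := by
    apply mem_normalizer_of_conj_mem
    intro y hy
    have h1 := hconj _ ⟨y, hy, rfl⟩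
    simp only [MulEquiv.coe_toMonoidHom, MulAut.conj_apply] at h1
    rw [← hql] at h1
    have h2 : l * u * y * (l * u)⁻¹ = q0⁻¹ * (q0 * l * (u * y * u⁻¹) * (q0 * l)⁻¹) * q0 := by group
    rw [h2]
    exact Q.mul_mem (Q.mul_mem (Q.inv_mem hq0) h1) hq0
  have hfw : f (l * u) = ub := by
    rw [map_mul, MonoidHom.mem_ker.1 hl, one_mul, hu]
  have hwπ : PiNum π (orderOf (l * u)) := PiNum.orderOf_of_map f hker _ (by rw [hfw]; exact hubπ)
  have := h q hq hqπ Q hQp (l * u) hw hwπ x1 hx1Q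
  have h3 := congrArg f this
  rw [map_mul (f := f) (l * u) x1, map_mul (f := f) x1 (l * u), hfw, hx1] at h3
  exact h3

/-- `π`-elements centralize normal `π'`-subgroups -/
theorem PiHomE.commute_of_normal [Finite G] {π : Set ℕ} (h : PiHomE π G) (K : Subgroup G) [K.Normal]
    (hK : PiNum πᶜ (Nat.card K)) (u : G) (hu : PiNum π (orderOf u)) : ∀ x ∈ K, u * x = x * u := by
  set C := K ⊓ Subgroup.centralizer {u} with hC
  have hKC : K ≤ C := by
    rw [← Subgroup.relIndex_eq_one, Nat.eq_one_iff_not_exists_prime_dvd]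
    intro q hq hd
    have : Fact q.Prime := ⟨hq⟩
    have hqK : q ∣ Nat.card K := hd.trans (Subgroup.relIndex_dvd_card C K)
    have hqπ : q ∉ π := hK q hq hqK
    obtain ⟨Q, hQK, hQp, hQidx, hQn⟩ := Cfsg.Agent.Lib.Helper1.exists_invariant_sylow
      (Subgroup.zpowers u) K Subgroup.le_normalizer_of_normal
      (by rw [Nat.card_zpowers]; exact hu.coprime hK) (Or.inl inferInstance) q
    have hQC : Q ≤ C := by
      intro x hx
      refine Subgroup.mem_inf.2 ⟨hQK hx, ?_⟩
      rw [Subgroup.mem_centralizer_singleton_iff]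
      exact (h q hq hqπ Q hQp u (hQn (Subgroup.mem_zpowers u)) hu x hx).symm
    exact hQidx (hd.trans (Subgroup.relIndex_dvd_of_le_left K hQC))
  intro x hx
  have := (Subgroup.mem_inf.1 (hKC hx)).2
  rw [Subgroup.mem_centralizer_singleton_iff] at this
  exact this.symm

/-- a group with a normal Hall `π'`-subgroup which is `π'`-homogeneous is `π`-closed -/
theorem PiClosed.of_normal_hall [Finite G] {π : Set ℕ} (h : PiHomE π G) (K : Subgroup G) [K.Normal]
    (hK : PiNum πᶜ (Nat.card K)) (hidx : PiNum π K.index) : PiClosed π G := by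
  obtain ⟨T, hT⟩ := Subgroup.exists_left_complement'_of_coprime (N := K) (hidx.coprime hK).symm
  have hTcard : Nat.card T = K.index := hT.index_eq_card.symm
  have hTidx : T.index = Nat.card K := hT.symm.index_eq_card
  have hTπ : ∀ x ∈ T, PiNum π (orderOf x) := fun x hx =>
    hidx.of_dvd (hTcard ▸ Subgroup.orderOf_dvd_natCard T hx)
  have hTn : T.Normal := by
    rw [← Subgroup.normalizer_eq_top_iff, eq_top_iff, ← hT.sup_eq_top, sup_le_iff]
    refine ⟨Subgroup.le_normalizer, ?_⟩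
    rw [Subgroup.le_normalizer_iff]
    intro k hk t ht
    have := h.commute_of_normal K hK t (hTπ t ht) k hk
    have e : k * t * k⁻¹ = t := by rw [← this]; group
    rw [e]; exact ht
  refine ⟨T, fun x => ⟨hTπ x, fun hx => ?_⟩⟩
  rw [← QuotientGroup.eq_one_iff, ← orderOf_eq_one_iff]
  have d1 : orderOf ((x : G) : G ⧸ T) ∣ orderOf x := orderOf_map_dvd (QuotientGroup.mk' T) x
  have d2 : orderOf ((x : G) : G ⧸ T) ∣ Nat.card K := by
    rw [← hTidx, Subgroup.index_eq_card]
    exact orderOf_dvd_natCard _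
  exact Nat.eq_one_of_dvd_coprimes (hx.coprime hK) d1 d2

/-- extension of a `π`-closed group by a normal `π'`-subgroup, under homogeneity -/
theorem PiClosed.of_ker_piNum_compl [Finite G] {π : Set ℕ} {Q' : Type*} [Group Q'] (f : G →* Q')
    (hf : Function.Surjective f) (hker : PiNum πᶜ (Nat.card f.ker)) (hQ : PiClosed π Q')
    (h : PiHomE π G) : PiClosed π G := by
  have : Finite Q' := Finite.of_surjective f hf
  obtain ⟨T', hT'⟩ := hQ
  set M := T'.comap f with hM
  apply PiClosed.of_subgroup M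
  · intro x hx
    rw [hM, Subgroup.mem_comap, hT']
    exact hx.of_dvd (orderOf_map_dvd f x)
  · have hkM : f.ker ≤ M := by
      intro l hl
      rw [hM, Subgroup.mem_comap, MonoidHom.mem_ker.1 hl]
      exact T'.one_mem
    apply PiClosed.of_normal_hall (h.subgroup M) (f.ker.subgroupOf M)
    · rw [Nat.card_congr (Subgroup.subgroupOfEquivOfLe hkM).toEquiv]
      exact hker
    · have : (f.ker.subgroupOf M).index = f.ker.relIndex M := rfl
      rw [this, Subgroup.relIndex_ker, hM, Subgroup.map_comap_eq_self_of_surjective hf]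
      exact PiNum.card_of_forall T' (fun x hx => (hT' x).1 hx)

/-- the main extension theorem -/
theorem PiClosed.of_normal [Finite G] {π : Set ℕ} (h : PiHomE π G) (K : Subgroup G) [K.Normal]
    (hK : ∃ L : Subgroup G, ∀ x : G, x ∈ L ↔ x ∈ K ∧ PiNum π (orderOf x))
    (hQ : PiClosed π (G ⧸ K)) : PiClosed π G := by
  obtain ⟨L, hL⟩ := hK
  have hLn : L.Normal := by
    constructor
    intro n hn g
    rw [hL] at hn ⊢
    refine ⟨‹K.Normal›.conj_mem n hn.1 g, ?_⟩
    have : orderOf (g * n * g⁻¹) = orderOf n := by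
      have := MulEquiv.orderOf_eq (MulAut.conj g) n
      simpa using this
    rw [this]; exact hn.2
  have hLK : L ≤ K := fun x hx => ((hL x).1 hx).1
  have hLπ : PiNum π (Nat.card L) := PiNum.card_of_forall L (fun x hx => ((hL x).1 hx).2)
  have hker1 : PiNum π (Nat.card (QuotientGroup.mk' L).ker) := by
    rw [QuotientGroup.ker_mk']; exact hLπ
  apply PiClosed.of_ker_piNum (QuotientGroup.mk' L) hker1
  have hE : PiHomE π (G ⧸ L) :=
    PiHomE.of_surjective (QuotientGroup.mk' L) (QuotientGroup.mk'_surjective L) hker1 h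
  set f2 : G ⧸ L →* G ⧸ K := QuotientGroup.map L K (MonoidHom.id G) hLK with hf2
  have hf2s : Function.Surjective f2 := by
    intro y
    obtain ⟨x, rfl⟩ := QuotientGroup.mk'_surjective K y
    exact ⟨QuotientGroup.mk' L x, rfl⟩
  apply PiClosed.of_ker_piNum_compl f2 hf2s _ hQ hE
  intro r hr hd hrπ
  have : Fact r.Prime := ⟨hr⟩
  obtain ⟨z, hz⟩ := exists_prime_orderOf_dvd_card' (G := f2.ker) r hd
  have hz' : orderOf (z : G ⧸ L) = r ^ 1 := by rw [Subgroup.orderOf_coe, hz, pow_one]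
  obtain ⟨x, hx, k', hk'⟩ := exists_lift_pElement (QuotientGroup.mk' L)
    (QuotientGroup.mk'_surjective L) hr (z : G ⧸ L) 1 hz'
  have hxK : x ∈ K := by
    have h1 : f2 (z : G ⧸ L) = 1 := z.2
    rw [← hx] at h1
    exact (QuotientGroup.eq_one_iff x).1 h1
  have hxL : x ∈ L := by
    rw [hL]
    refine ⟨hxK, ?_⟩
    intro p hp hpd
    rw [hk'] at hpd
    rw [(Nat.prime_dvd_prime_iff_eq hp hr).1 (hp.dvd_of_dvd_pow hpd)]
    exact hrπ
  have : (z : G ⧸ L) = 1 := by
    rw [← hx]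
    exact (QuotientGroup.eq_one_iff x).2 hxL
  rw [this, orderOf_one, pow_one] at hz'
  exact hr.one_lt.ne hz'

end Cfsg.Agent.Lib.Helper67
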