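import Mathlib
import Cfsg.Agent.Lib.Helper59.Derangement

set_option autoImplicit false

namespace Cfsg.Agent.Lib.Helper67

/-- A finite group is not the union of the conjugates of a proper subgroup. -/
theorem eq_top_of_forall_exists_conj_mem {G : Type*} [Group G] [Finite G] (H : Subgroup G)
    (hH : ∀ g : G, ∃ c : G, c * g * c⁻¹ ∈ H) : H = ⊤ := by
  have htrans : MulAction.IsPretransitive G (G ⧸ H) := inferInstance
  have key := (Cfsg.Agent.Lib.Helper59.derangement_key htrans ⊥ (by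
    intro g hg
    exfalso
    obtain ⟨c, hc⟩ := hH g
    apply hg ((c⁻¹ : G) : G ⧸ H)
    rw [MulAction.Quotient.smul_coe, QuotientGroup.eq]
    simp only [smul_eq_mul]
    have : (g * c⁻¹)⁻¹ * c⁻¹ = (c * g * c⁻¹)⁻¹ := by group
    rw [this]
    exact H.inv_mem hc)).1
  rw [eq_top_iff]
  intro g _
  obtain ⟨b, hb⟩ := key.exists_smul_eq ((1 : G) : G ⧸ H) ((g : G) : G ⧸ H)
  have hb1 : (b : G) = 1 := b.2
  have h2 : b • ((1 : G) : G ⧸ H) = ((1 : G) : G ⧸ H) := by
    have : b • ((1 : G) : G ⧸ H) = (b : G) • ((1 : G) : G ⧸ H) := rfl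
    rw [this, hb1, one_smul]
  have h3 : ((1 : G) : G ⧸ H) = ((g : G) : G ⧸ H) := h2.symm.trans hb
  rw [QuotientGroup.eq] at h3
  simpa using h3

end Cfsg.Agent.Lib.Helper67
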